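import Mathlib

/-!
# Groups of class at most two whose centre acts by faithful scalars

If `ρ : E → End_K(U)` (with `U ≠ 0`), the centre acts faithfully by scalars and `[E, E] ≤ Z(E)`, then
`|E : Z(E)| ≤ (dim_K U)^2`: coset representatives are linearly independent in `End_K(U)`.
-/

set_option autoImplicit false

open scoped commutatorElement

namespace Cfsg.Agent.Lib.FrobRep

theorem card_quot_center_le_sq {K U E : Type*} [Field K] [AddCommGroup U] [Module K U]
    [FiniteDimensional K U] [Nontrivial U] [Group E] [Finite E] (ρ : E →* Module.End K U)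
    (hscal : ∀ y ∈ Subgroup.center E, ∃ c : K, ρ y = c • 1)
    (hinj : ∀ y ∈ Subgroup.center E, ρ y = 1 → y = 1)
    (hc : ∀ x g : E, ⁅x, g⁆ ∈ Subgroup.center E) :
    Nat.card (E ⧸ Subgroup.center E) ≤ (Module.finrank K U) ^ 2 := by
  classical
  haveI := Fintype.ofFinite (E ⧸ Subgroup.center E)
  let s : E ⧸ Subgroup.center E → E := Quotient.out
  have hs : ∀ q, (QuotientGroup.mk (s q) : E ⧸ Subgroup.center E) = q := fun q => Quotient.out_eq q
  let v : E ⧸ Subgroup.center E → Module.End K U := fun q => ρ (s q)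
  choose χ hχ using fun (x : E) (q : E ⧸ Subgroup.center E) => hscal ⁅x, s q⁆ (hc x (s q))
  have hAd : ∀ x q, ρ x * v q * ρ x⁻¹ = χ x q • v q := by
    intro x q
    have h1 : x * s q * x⁻¹ = ⁅x, s q⁆ * s q := by
      rw [commutatorElement_def]
      group
    show ρ x * ρ (s q) * ρ x⁻¹ = χ x q • ρ (s q)
    rw [← map_mul, ← map_mul, h1, map_mul, hχ, smul_mul_assoc, one_mul]
  have hv0 : ∀ q, v q ≠ 0 := by
    intro q h0
    have h1 : ρ (s q) * ρ (s q)⁻¹ = 1 := by
      rw [← map_mul, mul_inv_cancel, map_one]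
    have h2 : ρ (s q) = 0 := h0
    rw [h2, zero_mul] at h1
    exact zero_ne_one h1
  have hne : ∀ q q₀, q ≠ q₀ → ∃ x, χ x q ≠ χ x q₀ := by
    intro q q₀ hqq
    by_contra hcon
    push Not at hcon
    apply hqq
    have h1 : ∀ x : E, ⁅x, s q⁆ = ⁅x, s q₀⁆ := by
      intro x
      have h2 : ρ ⁅x, s q⁆ = ρ ⁅x, s q₀⁆ := by
        rw [hχ, hχ, hcon]
      have h3 : ⁅x, s q⁆ * ⁅x, s q₀⁆⁻¹ ∈ Subgroup.center E :=
        Subgroup.mul_mem _ (hc _ _) (Subgroup.inv_mem _ (hc _ _))
      have h4 := hinj _ h3 (by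
        rw [map_mul, h2, ← map_mul, mul_inv_cancel, map_one])
      exact mul_inv_eq_one.1 h4
    rw [← hs q, ← hs q₀]
    symm
    rw [QuotientGroup.eq, Subgroup.mem_center_iff]
    intro x
    have h2 := h1 x⁻¹
    rw [commutatorElement_def, commutatorElement_def] at h2
    simp only [inv_inv] at h2
    have h3 : s q * x * (s q)⁻¹ = s q₀ * x * (s q₀)⁻¹ := by
      have : x⁻¹ * (s q * x * (s q)⁻¹) = x⁻¹ * (s q₀ * x * (s q₀)⁻¹) := by
        simpa [mul_assoc] using h2
      exact mul_left_cancel this
    calc x * ((s q₀)⁻¹ * s q) = (s q₀)⁻¹ * (s q₀ * x * (s q₀)⁻¹) * s q := by group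
      _ = (s q₀)⁻¹ * (s q * x * (s q)⁻¹) * s q := by rw [h3]
      _ = (s q₀)⁻¹ * s q * x := by group
  have hind : LinearIndependent K v := by
    rw [linearIndependent_iff']
    intro S
    induction S using Finset.induction_on with
    | empty => simp
    | insert q₀ S hq₀ ih =>
      intro c hsum
      rw [Finset.sum_insert hq₀] at hsum
      have hS : ∀ q ∈ S, c q = 0 := by
        intro q hq
        have hqq : q ≠ q₀ := fun h => hq₀ (h ▸ hq)
        obtain ⟨x, hx⟩ := hne q q₀ hqq
        have h1 := congrArg (fun f : Module.End K U => ρ x * f * ρ x⁻¹) hsum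
        simp only [mul_add, add_mul, Finset.mul_sum, Finset.sum_mul, mul_zero, zero_mul,
          mul_smul_comm, smul_mul_assoc, hAd, smul_smul] at h1
        have h2 : ∑ i ∈ S, (c i * (χ x i - χ x q₀)) • v i = 0 := by
          have h3 : ∑ i ∈ S, (c i * (χ x i - χ x q₀)) • v i
              = (c q₀ * χ x q₀) • v q₀ + ∑ i ∈ S, (c i * χ x i) • v i
                - χ x q₀ • (c q₀ • v q₀ + ∑ i ∈ S, c i • v i) := by
            rw [smul_add, Finset.smul_sum, smul_smul]
            have : (c q₀ * χ x q₀) = χ x q₀ * c q₀ := mul_comm _ _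
            rw [this, add_sub_add_left_eq_sub, ← Finset.sum_sub_distrib]
            apply Finset.sum_congr rfl
            intro i _
            rw [smul_smul, ← sub_smul]
            congr 1
            ring
          rw [h3, h1, hsum, smul_zero, sub_zero]
        have h4 := ih (fun i => c i * (χ x i - χ x q₀)) h2 q hq
        exact (mul_eq_zero.1 h4).resolve_right (sub_ne_zero.2 hx)
      intro q hq
      rw [Finset.mem_insert] at hq
      rcases hq with rfl | hq
      · have h1 : ∑ i ∈ S, c i • v i = 0 :=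
          Finset.sum_eq_zero (fun i hi => by rw [hS i hi, zero_smul])
        rw [h1, add_zero] at hsum
        exact (smul_eq_zero.1 hsum).resolve_right (hv0 _)
      · exact hS q hq
  have := hind.fintype_card_le_finrank
  rw [Module.finrank_linearMap, ← sq] at this
  rwa [Nat.card_eq_fintype_card]

end Cfsg.Agent.Lib.FrobRep
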