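import Mathlib

/-!
# Coordinates on a commuting pair of elements of order `p`

Elementary matrices acting on `⟨u⟩ × ⟨v⟩`, and the torus element `diag(a, a⁻¹)` produced from the two
root subgroups, normalizing a given Sylow subgroup.
-/

set_option autoImplicit false
set_option linter.unusedSectionVars false
set_option linter.style.haveILetI false

open scoped Matrix
open Subgroup

namespace Cfsg.Agent.Lib.FrobRep.ExtraCoord

variable {G : Type*} [Group G] {p : ℕ} [hpp : Fact p.Prime]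

theorem pow_val_add {g : G} (hg : g ^ p = 1) (a b : ZMod p) :
    g ^ (a + b).val = g ^ a.val * g ^ b.val := by
  rw [ZMod.val_add, ← pow_add]; exact (pow_eq_pow_mod _ hg).symm

theorem pow_val_mul {g : G} (hg : g ^ p = 1) (a b : ZMod p) :
    g ^ (a * b).val = (g ^ a.val) ^ b.val := by
  rw [ZMod.val_mul, ← pow_mul]; exact (pow_eq_pow_mod _ hg).symm

/-- The coordinate map. -/
def coord (u v : G) (x : Fin 2 → ZMod p) : G := u ^ (x 0).val * v ^ (x 1).val

theorem coord_add {u v : G} (hu : u ^ p = 1) (hv : v ^ p = 1) (huv : Commute u v)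
    (x y : Fin 2 → ZMod p) : coord u v (x + y) = coord u v x * coord u v y := by
  unfold coord
  rw [Pi.add_apply, Pi.add_apply, pow_val_add hu, pow_val_add hv]
  have := (huv.pow_pow (y 0).val (x 1).val).eq
  calc u ^ (x 0).val * u ^ (y 0).val * (v ^ (x 1).val * v ^ (y 1).val)
      = u ^ (x 0).val * (u ^ (y 0).val * v ^ (x 1).val) * v ^ (y 1).val := by group
    _ = u ^ (x 0).val * (v ^ (x 1).val * u ^ (y 0).val) * v ^ (y 1).val := by rw [this]
    _ = _ := by group

theorem coord_smul {u v : G} (hu : u ^ p = 1) (hv : v ^ p = 1) (huv : Commute u v)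
    (c : ZMod p) (x : Fin 2 → ZMod p) : coord u v (c • x) = (coord u v x) ^ c.val := by
  unfold coord
  rw [Pi.smul_apply, Pi.smul_apply, smul_eq_mul, smul_eq_mul, mul_comm c, mul_comm c,
    pow_val_mul hu, pow_val_mul hv, (huv.pow_pow _ _).mul_pow]

theorem coord_zero (u v : G) : coord u v (0 : Fin 2 → ZMod p) = 1 := by
  simp [coord]

/-- `g` acts on the pair `(u, v)` by the matrix `M`. -/
def Act (u v g : G) (M : Matrix (Fin 2) (Fin 2) (ZMod p)) : Prop :=
  ∀ x, g * coord u v x * g⁻¹ = coord u v (M *ᵥ x)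

theorem Act.one (u v : G) : Act (p := p) u v 1 1 := by
  intro x; simp

theorem Act.mul {u v g h : G} {M N : Matrix (Fin 2) (Fin 2) (ZMod p)} (hg : Act u v g M)
    (hh : Act u v h N) : Act u v (g * h) (M * N) := by
  intro x
  rw [← Matrix.mulVec_mulVec, ← hg, ← hh]
  group

theorem Act.inv {u v g : G} {M N : Matrix (Fin 2) (Fin 2) (ZMod p)} (hg : Act u v g M)
    (h : M * N = 1) : Act u v g⁻¹ N := by
  intro x
  have h1 := hg (N *ᵥ x)
  rw [Matrix.mulVec_mulVec, h, Matrix.one_mulVec] at h1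
  rw [← h1]
  group

theorem Act.of_gen {u v g : G} {M : Matrix (Fin 2) (Fin 2) (ZMod p)} (hu : u ^ p = 1)
    (hv : v ^ p = 1) (huv : Commute u v)
    (h0 : g * u * g⁻¹ = coord u v (fun i => M i 0))
    (h1 : g * v * g⁻¹ = coord u v (fun i => M i 1)) : Act u v g M := by
  intro x
  have h2 : M *ᵥ x = x 0 • (fun i => M i 0) + x 1 • (fun i => M i 1) := by
    ext i
    simp [Matrix.mulVec, dotProduct, Fin.sum_univ_two, mul_comm]
  rw [h2, coord_add hu hv huv, coord_smul hu hv huv, coord_smul hu hv huv, ← h0, ← h1, conj_pow,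
    conj_pow]
  unfold coord
  group

/-- Upper unitriangular matrices. -/
def E12 (c : ZMod p) : Matrix (Fin 2) (Fin 2) (ZMod p) := !![1, c; 0, 1]

/-- Lower unitriangular matrices. -/
def E21 (c : ZMod p) : Matrix (Fin 2) (Fin 2) (ZMod p) := !![1, 0; c, 1]

/-- Diagonal matrices of determinant one. -/
def Dg (a : ZMod p) : Matrix (Fin 2) (Fin 2) (ZMod p) := !![a, 0; 0, a⁻¹]

theorem E12_zero : E12 (0 : ZMod p) = 1 := by
  ext i j; fin_cases i <;> fin_cases j <;> simp [E12]

theorem E21_zero : E21 (0 : ZMod p) = 1 := by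
  ext i j; fin_cases i <;> fin_cases j <;> simp [E21]

theorem E12_mul (c d : ZMod p) : E12 c * E12 d = E12 (c + d) := by
  ext i j; fin_cases i <;> fin_cases j <;> simp [E12, Matrix.mul_apply, Fin.sum_univ_two, add_comm]

theorem E21_mul (c d : ZMod p) : E21 c * E21 d = E21 (c + d) := by
  ext i j; fin_cases i <;> fin_cases j <;> simp [E21, Matrix.mul_apply, Fin.sum_univ_two, add_comm]

theorem Dg_mul_inv (a : ZMod p) (ha : a ≠ 0) : Dg a * Dg a⁻¹ = 1 := by
  have h : a * a⁻¹ = 1 := mul_inv_cancel₀ ha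
  unfold Dg
  rw [Matrix.mul_fin_two]
  ext i j
  fin_cases i <;> fin_cases j <;> simp [h, inv_mul_cancel₀ ha]

/-- The torus as a product of four elementary matrices. -/
theorem Dg_eq (a : ZMod p) (ha : a ≠ 0) :
    Dg a = E12 (a - 1) * E21 1 * E12 (a⁻¹ - 1) * E21 (-a) := by
  have h : a * a⁻¹ = 1 := mul_inv_cancel₀ ha
  unfold Dg E12 E21
  rw [Matrix.mul_fin_two, Matrix.mul_fin_two, Matrix.mul_fin_two]
  ext i j
  fin_cases i <;> fin_cases j <;> simp
  · left; linear_combination h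
  · linear_combination -h
  · linear_combination h

/-- Conjugating a root element by the torus. -/
theorem Dg_conj (a c : ZMod p) (ha : a ≠ 0) : Dg a * E12 c * Dg a⁻¹ = E12 (a ^ 2 * c) := by
  ext i j
  fin_cases i <;> fin_cases j <;>
    simp [Dg, E12, Matrix.mul_apply, Fin.sum_univ_two, ha] <;> ring

section Sylow

variable [Finite G]

/-- Two Sylow subgroups in a subgroup are conjugate in the subgroup. -/
theorem exists_smul_eq_sylow (P P' : Sylow p G) (K : Subgroup G) (h : (P : Subgroup G) ≤ K)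
    (h' : (P' : Subgroup G) ≤ K) : ∃ r ∈ K, r • P' = P := by
  obtain ⟨r, hr⟩ := MulAction.exists_smul_eq K (P'.subtype h') (P.subtype h)
  refine ⟨r, r.2, ?_⟩
  rw [Sylow.smul_subtype] at hr
  exact Sylow.subtype_injective hr

/-- The torus element in the normalizer of a Sylow subgroup. -/
theorem exists_torus (P : Sylow p G) (u v : G) (hPR : ∀ t ∈ (P : Subgroup G), ∃ c : ZMod p, Act u v t (E12 c))
    (hE12 : ∀ c : ZMod p, ∃ t, Act u v t (E12 c)) (hE21 : ∀ c : ZMod p, ∃ h, Act u v h (E21 c))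
    (a : ZMod p) (ha : a ≠ 0) :
    ∃ y ∈ normalizer (P : Set G), ∃ c : ZMod p, Act u v y (E12 c * Dg a) := by
  obtain ⟨t₁, ht₁⟩ := hE12 (a - 1)
  obtain ⟨h₁, hh₁⟩ := hE21 1
  obtain ⟨t₂, ht₂⟩ := hE12 (a⁻¹ - 1)
  obtain ⟨h₂, hh₂⟩ := hE21 (-a)
  set x := t₁ * h₁ * t₂ * h₂ with hx
  have hxa : Act u v x (Dg a) := by
    rw [Dg_eq a ha]
    exact ((ht₁.mul hh₁).mul ht₂).mul hh₂
  have hxi : Act u v x⁻¹ (Dg a⁻¹) := hxa.inv (Dg_mul_inv a ha)
  let R : Subgroup G :=
    { carrier := {g | ∃ c : ZMod p, Act u v g (E12 c)}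
      one_mem' := ⟨0, by rw [E12_zero]; exact Act.one u v⟩
      mul_mem' := by
        rintro g h ⟨c, hc⟩ ⟨d, hd⟩
        exact ⟨c + d, by rw [← E12_mul]; exact hc.mul hd⟩
      inv_mem' := by
        rintro g ⟨c, hc⟩
        exact ⟨-c, hc.inv (by rw [E12_mul, add_neg_cancel, E12_zero])⟩ }
  have hPR' : (P : Subgroup G) ≤ R := fun t ht => hPR t ht
  have hxP : ((x • P : Sylow p G) : Subgroup G) ≤ R := by
    intro t ht
    rw [Sylow.coe_subgroup_smul, Subgroup.mem_pointwise_smul_iff_inv_smul_mem] at ht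
    obtain ⟨c, hc⟩ := hPR _ ht
    refine ⟨a ^ 2 * c, ?_⟩
    rw [← Dg_conj a c ha]
    have h1 : t = x * ((MulAut.conj x)⁻¹ • t) * x⁻¹ := by
      rw [MulAut.smul_def, ← map_inv, MulAut.conj_apply]
      group
    rw [h1]
    exact (hxa.mul hc).mul hxi
  obtain ⟨r, hr, hrP⟩ := exists_smul_eq_sylow P (x • P) R hPR' hxP
  obtain ⟨c, hc⟩ := hr
  refine ⟨r * x, ?_, c, hc.mul hxa⟩
  rw [← Sylow.smul_eq_iff_mem_normalizer, mul_smul]
  exact hrP

end Sylow

end Cfsg.Agent.Lib.FrobRep.ExtraCoord
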