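import Cfsg.Agent.Lib.FrobRep.PGLBound
import Cfsg.Agent.Lib.FrobRep.ExtraCoord
import Cfsg.Agent.Lib.PGroup.Extraspecial

/-!
# Extraspecial groups of order `p³` and exponent `p`: lines with a torus element

`V = Q / Z(Q)`, the action of automorphisms of `Q` on `V`, and the consequences of a torus element
`diag(a, a⁻¹)` acting on a plane through `Z(Q)`.
-/

set_option autoImplicit false
set_option linter.unusedSectionVars false
set_option linter.style.haveILetI false

open scoped Matrix commutatorElement LinearAlgebra.Projectivization Pointwise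
open Subgroup

namespace Cfsg.Agent.Lib.FrobRep.ExtraP3

open ExtraCoord PGLBound

variable {p : ℕ} [hpp : Fact p.Prime]

section coordLemmas

variable {G : Type*} [Group G]

theorem coord_e0 (u v : G) (a : ZMod p) : coord u v ![a, (0 : ZMod p)] = u ^ a.val := by
  simp [coord]

theorem coord_one_col (u v : G) (c d : ZMod p) : coord u v ![c, d] = u ^ c.val * v ^ d.val := rfl

theorem coord_map {H : Type*} [Group H] (f : G →* H) (u v : G) (x : Fin 2 → ZMod p) :
    coord (f u) (f v) x = f (coord u v x) := by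
  simp [coord]

theorem Act.map {H : Type*} [Group H] (f : G →* H) {u v g : G}
    {M : Matrix (Fin 2) (Fin 2) (ZMod p)} (h : Act u v g M) : Act (f u) (f v) (f g) M := by
  intro x
  rw [coord_map, coord_map, ← h x]
  simp

theorem act_of_E12 {u v t : G} (hu : u ^ p = 1) (hv : v ^ p = 1) (huv : Commute u v) (c : ZMod p)
    (h0 : t * u * t⁻¹ = u) (h1 : t * v * t⁻¹ = u ^ c.val * v) : Act u v t (E12 c) := by
  have hp1 : (1 : ZMod p).val = 1 := ZMod.val_one p
  refine Act.of_gen hu hv huv ?_ ?_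
  · simp [coord, E12, h0, hp1]
  · simp [coord, E12, h1, hp1]

theorem act_of_E21 {u v t : G} (hu : u ^ p = 1) (hv : v ^ p = 1) (huv : Commute u v) (c : ZMod p)
    (h0 : t * u * t⁻¹ = u * v ^ c.val) (h1 : t * v * t⁻¹ = v) : Act u v t (E21 c) := by
  have hp1 : (1 : ZMod p).val = 1 := ZMod.val_one p
  refine Act.of_gen hu hv huv ?_ ?_
  · simp [coord, E21, h0, hp1]
  · simp [coord, E21, h1, hp1]

theorem act_E12_Dg_apply {u v y : G} {a c : ZMod p} (h : Act u v y (E12 c * Dg a)) :
    y * u * y⁻¹ = u ^ a.val ∧ y * v * y⁻¹ = u ^ (c * a⁻¹).val * v ^ (a⁻¹).val := by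
  have hp1 : (1 : ZMod p).val = 1 := ZMod.val_one p
  have h0 := h ![1, 0]
  have h1 := h ![0, 1]
  have hm0 : (E12 c * Dg a) *ᵥ ![1, 0] = ![a, 0] := by
    ext i; fin_cases i <;> simp [E12, Dg, Matrix.mulVec, dotProduct, Fin.sum_univ_two, Matrix.mul_apply]
  have hm1 : (E12 c * Dg a) *ᵥ ![0, 1] = ![c * a⁻¹, a⁻¹] := by
    ext i; fin_cases i <;> simp [E12, Dg, Matrix.mulVec, dotProduct, Fin.sum_univ_two, Matrix.mul_apply]
  rw [hm0] at h0
  rw [hm1] at h1
  simp only [coord_one_col, ZMod.val_zero, pow_zero, mul_one, hp1, pow_one, one_mul] at h0 h1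
  exact ⟨h0, h1⟩

end coordLemmas

section Qlevel

variable {Q : Type*} [Group Q]

/-- The facts we use about an extraspecial group of exponent `p`. -/
structure Ext (p : ℕ) (Q : Type*) [Group Q] : Prop where
  hc : ∀ x y : Q, ⁅x, y⁆ ∈ center Q
  hexp : ∀ x : Q, x ^ p = 1
  hZ : Nat.card (center Q) = p

variable (hQ : Ext p Q)

include hQ

theorem Ext.exists_pow_of_center {u z : Q} (hu : u ∈ center Q) (hu1 : u ≠ 1) (hz : z ∈ center Q) :
    ∃ c : ZMod p, z = u ^ c.val := by
  have hu1' : (⟨u, hu⟩ : center Q) ≠ 1 := fun h => hu1 (congrArg Subtype.val h)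
  obtain ⟨n, hn⟩ := mem_powers_of_prime_card hQ.hZ (g := ⟨u, hu⟩) (g' := ⟨z, hz⟩) hu1'
  have hn' : u ^ n = z := congrArg Subtype.val hn
  refine ⟨(n : ZMod p), ?_⟩
  rw [ZMod.val_natCast, ← hn']
  exact pow_eq_pow_mod _ (hQ.hexp u)

theorem Ext.exists_comm_eq {b z : Q} (hb : b ∉ center Q) (hz : z ∈ center Q) :
    ∃ t : Q, ⁅t, b⁆ = z := by
  rw [mem_center_iff] at hb
  push Not at hb
  obtain ⟨t₀, ht₀⟩ := hb
  have h1 : ⁅t₀, b⁆ ≠ 1 := by
    rw [Ne, commutatorElement_eq_one_iff_mul_comm]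
    exact ht₀
  obtain ⟨c, hc⟩ := hQ.exists_pow_of_center (hQ.hc t₀ b) h1 hz
  refine ⟨t₀ ^ c.val, ?_⟩
  rw [PGroup.Extraspecial.comm_pow_left hQ.hc, hc]

/-- The square law for the action on the centre. -/
theorem Ext.core_scalar {V : Type*} [AddCommGroup V] [Module (ZMod p) V] (π : Q → V)
    (hπ : ∀ s t, π (s * t) = π s + π t) (hker : ∀ t, π t = 0 ↔ t ∈ center Q)
    (β : Q ≃* Q) (l μ : ZMod p) (hβ : ∀ t, π (β t) = l • π t) (v t : Q) (ht : ⁅v, t⁆ ≠ 1)
    (hμ : ∀ z ∈ center Q, β z = z ^ μ.val) : μ = l ^ 2 := by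
  have hπ1 : π 1 = 0 := by
    have := hπ 1 1
    rw [mul_one] at this
    simpa using this
  have hπpow : ∀ (x : Q) (n : ℕ), π (x ^ n) = n • π x := by
    intro x n
    induction n with
    | zero => simp [hπ1]
    | succ n ih => rw [pow_succ, hπ, ih, succ_nsmul]
  have hπinv : ∀ x : Q, π x⁻¹ = - π x := by
    intro x
    have := hπ x⁻¹ x
    rw [inv_mul_cancel, hπ1] at this
    exact eq_neg_of_add_eq_zero_left this.symm
  -- the image of `x` differs from `x ^ l` by a central element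
  have hform : ∀ x : Q, ∃ z ∈ center Q, β x = z * x ^ l.val := by
    intro x
    refine ⟨β x * (x ^ l.val)⁻¹, ?_, by group⟩
    rw [← hker, hπ, hπinv, hβ, hπpow]
    have : l.val • π x = l • π x := by
      rw [← Nat.cast_smul_eq_nsmul (ZMod p), ZMod.natCast_zmod_val]
    rw [this, add_neg_cancel]
  obtain ⟨z₁, hz₁, h₁⟩ := hform v
  obtain ⟨z₂, hz₂, h₂⟩ := hform t
  have hcm := hQ.hc
  have hz1 : ∀ y : Q, ⁅z₁, y⁆ = 1 := by
    intro y
    rw [commutatorElement_eq_one_iff_mul_comm]
    exact (mem_center_iff.mp hz₁ y).symm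
  have hz2 : ∀ y : Q, ⁅y, z₂⁆ = 1 := by
    intro y
    rw [commutatorElement_eq_one_iff_mul_comm]
    exact mem_center_iff.mp hz₂ y
  have h3 : β ⁅v, t⁆ = ⁅v, t⁆ ^ (l.val * l.val) := by
    rw [map_commutatorElement, h₁, h₂, PGroup.Extraspecial.comm_mul_left hcm, hz1, one_mul,
      PGroup.Extraspecial.comm_mul_right hcm, hz2, one_mul, PGroup.Extraspecial.comm_pow_left hcm,
      PGroup.Extraspecial.comm_pow_right hcm, pow_mul]
  rw [hμ _ (hcm v t)] at h3
  have hord : orderOf ⁅v, t⁆ = p := orderOf_eq_prime (hQ.hexp _) ht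
  have h4 := (pow_inj_mod (x := ⁅v, t⁆)).mp h3
  rw [hord] at h4
  have h5 : ((μ.val : ℕ) : ZMod p) = ((l.val * l.val : ℕ) : ZMod p) :=
    (ZMod.natCast_eq_natCast_iff' _ _ _).mpr h4
  rw [ZMod.natCast_zmod_val, Nat.cast_mul, ZMod.natCast_zmod_val] at h5
  rw [h5, sq]

end Qlevel

section VV

variable (Q : Type*) [Group Q]

/-- The plane `Q / Q'`. -/
abbrev VV : Type _ := Additive (Abelianization Q)

variable {Q}

/-- The projection to the plane. -/
def piV (t : Q) : VV Q := Additive.ofMul (Abelianization.of t)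

theorem piV_mul (s t : Q) : piV (s * t) = piV s + piV t := by
  simp [piV]

theorem piV_eq_zero_iff (t : Q) : piV t = 0 ↔ t ∈ commutator Q := by
  change Abelianization.of t = 1 ↔ _
  exact QuotientGroup.eq_one_iff t

theorem piV_surjective : Function.Surjective (piV (Q := Q)) := by
  intro x
  obtain ⟨t, ht⟩ := QuotientGroup.mk_surjective (Additive.toMul x)
  exact ⟨t, ht⟩

variable (p) in
/-- The action of automorphisms on the plane. -/
noncomputable def rhoAut [Module (ZMod p) (VV Q)] : MulAut Q →* (VV Q ≃ₗ[ZMod p] VV Q) where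
  toFun α := (MulEquiv.toAdditive (MulEquiv.abelianizationCongr α)).toLinearEquiv
    (fun c x => ZMod.map_smul _ c x)
  map_one' := by
    ext x
    obtain ⟨t, rfl⟩ := piV_surjective x
    rfl
  map_mul' α β := by
    ext x
    obtain ⟨t, rfl⟩ := piV_surjective x
    rfl

theorem rhoAut_piV [Module (ZMod p) (VV Q)] (α : MulAut Q) (t : Q) :
    rhoAut p α (piV t) = piV (α t) := rfl

end VV

section Good

variable {Q : Type*} [Group Q]

theorem piV_pow (t : Q) (n : ℕ) : piV (t ^ n) = n • piV t := by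
  induction n with
  | zero => simp [piV]
  | succ n ih => rw [pow_succ, piV_mul, ih, succ_nsmul]

theorem piV_pow_val [Module (ZMod p) (VV Q)] (t : Q) (c : ZMod p) : piV (t ^ c.val) = c • piV t := by
  rw [piV_pow, ← Nat.cast_smul_eq_nsmul (ZMod p), ZMod.natCast_zmod_val]

theorem aut_mem_center (γ : MulAut Q) {z : Q} (hz : z ∈ center Q) : γ z ∈ center Q := by
  rw [mem_center_iff]
  intro g
  have := mem_center_iff.mp hz (γ.symm g)
  apply γ.symm.injective
  simpa using this

variable [Module (ZMod p) (VV Q)]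

/-- `x` is an eigenvector with eigenvalue `a⁻¹` of an element of `N` acting on `Z(Q)` as the power
`a`. -/
def Good (N : Subgroup (MulAut Q)) (a : ZMod p) (x : VV Q) : Prop :=
  ∃ α ∈ N, (∀ z ∈ center Q, α z = z ^ a.val) ∧ rhoAut p α x = a⁻¹ • x

theorem Good.map {N : Subgroup (MulAut Q)} {a : ZMod p} {x : VV Q} (h : Good N a x)
    {β : MulAut Q} (hβ : β ∈ N) : Good N a (rhoAut p β x) := by
  obtain ⟨α, hα, hαz, hαx⟩ := h
  refine ⟨β * α * β⁻¹, N.mul_mem (N.mul_mem hβ hα) (N.inv_mem hβ), ?_, ?_⟩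
  · intro z hz
    have h1 : β⁻¹ z ∈ center Q := aut_mem_center _ hz
    rw [MulAut.mul_apply, MulAut.mul_apply, hαz _ h1, map_pow, ← MulAut.mul_apply, mul_inv_cancel,
      MulAut.one_apply]
  · have h1 : (rhoAut p β)⁻¹ ((rhoAut p β) x) = x :=
      (LinearEquiv.mul_apply ((rhoAut p β)⁻¹) (rhoAut p β) x).symm.trans (by rw [inv_mul_cancel]; rfl)
    rw [map_mul, map_mul, map_inv, LinearEquiv.mul_apply, LinearEquiv.mul_apply,
      h1, hαx, map_smul]

theorem no_scalar (hQ : Ext p Q) (hcomm : commutator Q = center Q) (a : ZMod p) (ha : a ≠ 0)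
    (α : MulAut Q) (hαz : ∀ z ∈ center Q, α z = z ^ a.val) (x : VV Q) (hx : x ≠ 0)
    (hαx : rhoAut p α x = a⁻¹ • x) (k : ℕ) (hs : IsScalar ((rhoAut p α) ^ k)) : a ^ (3 * k) = 1 := by
  obtain ⟨l, hl⟩ := hs
  have hker : ∀ t : Q, piV t = 0 ↔ t ∈ center Q := by
    intro t; rw [piV_eq_zero_iff, hcomm]
  have hβ : ∀ t, piV (((α ^ k : MulAut Q)) t) = l • piV t := by
    intro t
    rw [← rhoAut_piV (p := p), map_pow, hl]
  have hxk : ∀ n : ℕ, ((rhoAut p α) ^ n) x = (a⁻¹) ^ n • x := by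
    intro n
    induction n with
    | zero => simp
    | succ n ih =>
      rw [pow_succ', LinearEquiv.mul_apply, ih, map_smul, hαx, smul_smul, pow_succ]
  have hl' : l = (a⁻¹) ^ k := by
    have h1 := hxk k
    rw [hl] at h1
    have h2 : (l - (a⁻¹) ^ k) • x = 0 := by rw [sub_smul, h1, sub_self]
    rcases smul_eq_zero.mp h2 with h | h
    · exact sub_eq_zero.mp h
    · exact absurd h hx
  have hμ : ∀ n : ℕ, ∀ z ∈ center Q, (α ^ n : MulAut Q) z = z ^ (a ^ n).val := by
    intro n
    induction n with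
    | zero =>
      intro z _
      simp [ZMod.val_one]
    | succ n ih =>
      intro z hz
      rw [pow_succ, MulAut.mul_apply, hαz z hz, map_pow, ih z hz, pow_succ,
        pow_val_mul (hQ.hexp z)]
  obtain ⟨v, rfl⟩ := piV_surjective x
  have hv : v ∉ center Q := fun h => hx ((hker v).mpr h)
  rw [mem_center_iff] at hv
  push Not at hv
  obtain ⟨t, ht⟩ := hv
  have ht' : ⁅v, t⁆ ≠ 1 := by
    rw [Ne, commutatorElement_eq_one_iff_mul_comm]
    exact fun h => ht h.symm
  have hcore := hQ.core_scalar piV piV_mul hker (α ^ k) l (a ^ k) hβ v t ht' (hμ k)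
  rw [hl'] at hcore
  have h2 : (a⁻¹) ^ k * a ^ k = 1 := by rw [← mul_pow, inv_mul_cancel₀ ha, one_pow]
  calc a ^ (3 * k) = a ^ k * a ^ k * a ^ k := by ring
    _ = ((a⁻¹) ^ k) ^ 2 * a ^ k * a ^ k := by rw [← hcore]
    _ = ((a⁻¹) ^ k * a ^ k) ^ 2 := by ring
    _ = 1 := by rw [h2, one_pow]

theorem count_lines (hp : p ≠ 2) (hV : Module.finrank (ZMod p) (VV Q) = 2)
    (N : Subgroup (MulAut Q)) (hNW : ∀ y ∈ N.map (rhoAut p), y ^ p = 1 → y = 1)
    (hQ : Ext p Q) (hcomm : commutator Q = center Q) (a : ZMod p) (ha : a ≠ 0)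
    (hord : ∀ k : ℕ, a ^ k = 1 → (p - 1) ∣ k) (S : Set (VV Q)) (h0 : ∀ x ∈ S, x ≠ 0)
    (hS : ∀ u ∈ S, ∀ v ∈ S, ∀ c : ZMod p, u = c • v → u = v) (hgood : ∀ x ∈ S, Good N a x) :
    ((∀ k : ℕ, 0 < k → k < 4 → ¬ (p - 1) ∣ 3 * k) → S.ncard ≤ 12) ∧
      ((∀ k : ℕ, 0 < k → k < 6 → ¬ (p - 1) ∣ 3 * k) → S.ncard ≤ 2) := by
  obtain ⟨h12, h2⟩ := pgl_bound hp hV (N.map (rhoAut p)) hNW S h0 hS
  constructor
  · intro h
    refine h12 fun x hx => ?_
    obtain ⟨α, hαN, hαz, hαx⟩ := hgood x hx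
    exact ⟨rhoAut p α, mem_map_of_mem _ hαN, a⁻¹, hαx, fun k hk0 hk hs =>
      h k hk0 hk (hord _ (no_scalar hQ hcomm a ha α hαz x (h0 x hx) hαx k hs))⟩
  · intro h
    refine h2 fun x hx => ?_
    obtain ⟨α, hαN, hαz, hαx⟩ := hgood x hx
    exact ⟨rhoAut p α, mem_map_of_mem _ hαN, a⁻¹, hαx, fun k hk0 hk hs =>
      h k hk0 hk (hord _ (no_scalar hQ hcomm a ha α hαz x (h0 x hx) hαx k hs))⟩

theorem finrank_VV [Finite Q] (hcard : Nat.card Q = p ^ 3)
    (hZ : Nat.card (commutator Q) = p) : Module.finrank (ZMod p) (VV Q) = 2 := by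
  have h1 : Nat.card (VV Q) = p ^ 2 := by
    have h2 : Nat.card Q = Nat.card (Q ⧸ commutator Q) * Nat.card (commutator Q) :=
      Subgroup.card_eq_card_quotient_mul_card_subgroup _
    have h3 : Nat.card (VV Q) = Nat.card (Q ⧸ commutator Q) := rfl
    rw [h3]
    rw [hcard, hZ] at h2
    have hpos : 0 < p := (Fact.out : p.Prime).pos
    apply Nat.eq_of_mul_eq_mul_right hpos
    rw [← h2]; ring
  haveI : Finite (VV Q) := by
    change Finite (Additive (Q ⧸ commutator Q))
    infer_instance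
  have h4 := Module.natCard_eq_pow_finrank (K := ZMod p) (V := VV Q)
  rw [h1, Nat.card_zmod] at h4
  exact (Nat.pow_right_injective (Fact.out : p.Prime).two_le h4).symm

theorem exists_primitive (p : ℕ) [Fact p.Prime] :
    ∃ a : ZMod p, a ≠ 0 ∧ ∀ k : ℕ, a ^ k = 1 → (p - 1) ∣ k := by
  obtain ⟨g, hg⟩ := IsCyclic.exists_generator (α := (ZMod p)ˣ)
  refine ⟨(g : ZMod p), g.ne_zero, fun k hk => ?_⟩
  have h1 : orderOf g = p - 1 := by
    rw [orderOf_eq_card_of_forall_mem_zpowers hg, Nat.card_eq_fintype_card, ZMod.card_units p]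
  rw [← h1]
  apply orderOf_dvd_of_pow_eq_one
  apply Units.ext
  simpa using hk

end Good

section Sylow

variable {G : Type*} [Group G] [Finite G]

/-- The image of the normalizer in `Aut(P)`. -/
abbrev NN (P : Sylow p G) : Subgroup (MulAut (P : Subgroup G)) :=
  (normalizerMonoidHom (P : Subgroup G)).range

theorem nn_apply (P : Sylow p G) (y : normalizer ((P : Subgroup G) : Set G)) (t : (P : Subgroup G)) :
    ((normalizerMonoidHom (P : Subgroup G) y t : (P : Subgroup G)) : G) = y * t * (y : G)⁻¹ := rfl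


/-- Elements of `N_G(P)` have no nontrivial `p`-part on the plane. -/
theorem W_no_p (P : Sylow p G) [Module (ZMod p) (VV (P : Subgroup G))] (y)
    (hy : y ∈ (NN P).map (rhoAut p)) (hyp : y ^ p = 1) : y = 1 := by
  obtain ⟨_, ⟨g, rfl⟩, rfl⟩ := hy
  have hn : orderOf g ≠ 0 := (orderOf_pos g).ne'
  obtain ⟨e, m, hm, hnm⟩ := Nat.exists_eq_pow_mul_and_not_dvd hn p (Fact.out : p.Prime).ne_one
  set s := g ^ m with hs
  have hs1 : s ^ (p ^ e) = 1 := by
    rw [hs, ← pow_mul, mul_comm, ← hnm, pow_orderOf_eq_one]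
  have hs2 : ((s : normalizer ((P : Subgroup G) : Set G)) : G) ^ (p ^ e) = 1 := by
    have := congrArg (Subtype.val) hs1
    simpa using this
  have hsP : (s : G) ∈ (P : Subgroup G) := by
    have hpg : IsPGroup p (zpowers (s : G)) := by
      rintro ⟨h, i, rfl⟩
      refine ⟨e, Subtype.ext ?_⟩
      change ((s : G) ^ i) ^ (p ^ e) = 1
      rw [← zpow_natCast, zpow_comm, zpow_natCast, hs2, one_zpow]
    have h1 : zpowers (s : G) ≤ normalizer ((P : Subgroup G) : Set G) := by
      rw [zpowers_le]; exact s.2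
    have h2 : P ∈ MulAction.fixedPoints (zpowers (s : G)) (Sylow p G) :=
      (Subgroup.sylow_mem_fixedPoints_iff _).mpr h1
    have h3 := hpg.sylow_mem_fixedPoints_iff.mp h2
    exact h3 (mem_zpowers _)
  have hρs : rhoAut p (normalizerMonoidHom (P : Subgroup G) s) = 1 := by
    refine LinearEquiv.ext fun x => ?_
    obtain ⟨t, rfl⟩ := piV_surjective x
    rw [rhoAut_piV]
    change _ = piV t
    have h1 : normalizerMonoidHom (P : Subgroup G) s t =
        (⟨s, hsP⟩ : (P : Subgroup G)) * t * (⟨s, hsP⟩ : (P : Subgroup G))⁻¹ := by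
      apply Subtype.ext
      rfl
    rw [h1, piV_mul, piV_mul]
    have h2 : piV (⟨s, hsP⟩ : (P : Subgroup G))⁻¹ = - piV (⟨s, hsP⟩ : (P : Subgroup G)) := by
      have h3 := piV_mul (⟨s, hsP⟩ : (P : Subgroup G))⁻¹ (⟨s, hsP⟩ : (P : Subgroup G))
      rw [inv_mul_cancel] at h3
      have h4 : piV (1 : (P : Subgroup G)) = 0 := by simp [piV]
      rw [h4] at h3
      exact eq_neg_of_add_eq_zero_left h3.symm
    rw [h2, add_comm (piV (⟨s, hsP⟩ : (P : Subgroup G))), add_neg_cancel_right]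
  have hym : (rhoAut p (normalizerMonoidHom (P : Subgroup G) g)) ^ m = 1 := by
    rw [← map_pow, ← map_pow, ← hs, hρs]
  have hco : m.gcd p = 1 := by
    exact ((Nat.Prime.coprime_iff_not_dvd (Fact.out : p.Prime)).mpr hm).symm
  have := pow_gcd_eq_one.mpr ⟨hym, hyp⟩
  rwa [hco, pow_one] at this


/-- The torus gives good lines. -/
theorem good_of_E21 (P : Sylow p G) [Module (ZMod p) (VV (P : Subgroup G))]
    (hQ : Ext p (P : Subgroup G)) (hcomm : commutator (P : Subgroup G) = center (P : Subgroup G))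
    (u v : (P : Subgroup G)) (hu : u ∈ center (P : Subgroup G)) (hu1 : u ≠ 1)
    (hv : v ∉ center (P : Subgroup G))
    (hE21 : ∀ c : ZMod p, ∃ h, Act (u : G) (v : G) h (E21 c)) (a : ZMod p) (ha : a ≠ 0) :
    Good (NN P) a (piV v) := by
  have hcu : Commute u v := (mem_center_iff.mp hu v).symm
  have hact : ∀ (t : (P : Subgroup G)) (c : ZMod p), ⁅t, v⁆ = u ^ c.val → Act (u : G) (v : G) (t : G) (E12 c) := by
    intro t c htc
    have h := act_of_E12 (t := t) (hQ.hexp u) (hQ.hexp v) hcu c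
      (by rw [mem_center_iff.mp hu t]; group) (by rw [← htc, commutatorElement_def]; group)
    exact Act.map (P : Subgroup G).subtype h
  have hPR : ∀ t ∈ (P : Subgroup G), ∃ c : ZMod p, Act (u : G) (v : G) t (E12 c) := by
    intro t ht
    obtain ⟨c, hc⟩ := hQ.exists_pow_of_center hu hu1 (hQ.hc ⟨t, ht⟩ v)
    exact ⟨c, hact ⟨t, ht⟩ c hc⟩
  have hE12 : ∀ c : ZMod p, ∃ t, Act (u : G) (v : G) t (E12 c) := by
    intro c
    obtain ⟨t, ht⟩ := hQ.exists_comm_eq hv (pow_mem hu c.val)
    exact ⟨t, hact t c ht⟩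
  obtain ⟨y, hy, c, hyc⟩ := exists_torus P (u : G) (v : G) hPR hE12 hE21 a ha
  obtain ⟨hyu, hyv⟩ := act_E12_Dg_apply hyc
  refine ⟨normalizerMonoidHom (P : Subgroup G) ⟨y, hy⟩, ⟨_, rfl⟩, ?_, ?_⟩
  · intro z hz
    obtain ⟨d, rfl⟩ := hQ.exists_pow_of_center hu hu1 hz
    have h1 : normalizerMonoidHom (P : Subgroup G) ⟨y, hy⟩ u = u ^ a.val := Subtype.ext hyu
    rw [map_pow, h1, pow_right_comm]
  · rw [rhoAut_piV]
    have h1 : normalizerMonoidHom (P : Subgroup G) ⟨y, hy⟩ v =
        u ^ (c * a⁻¹).val * v ^ (a⁻¹).val := Subtype.ext hyv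
    have hker : ∀ t : (P : Subgroup G), piV t = 0 ↔ t ∈ center (P : Subgroup G) := by
      intro t; rw [piV_eq_zero_iff, hcomm]
    rw [h1, piV_mul, (hker _).mpr (pow_mem hu _), zero_add, piV_pow_val]


/-- A `p`-subgroup of `C ≥ P` can be conjugated into `P` inside `C`. -/
theorem exists_conj_into_sylow (P : Sylow p G) (C : Subgroup G) (hPC : (P : Subgroup G) ≤ C)
    (B : Subgroup G) (hBC : B ≤ C) (hB : IsPGroup p B) :
    ∃ c ∈ C, ∀ b ∈ B, c * b * c⁻¹ ∈ (P : Subgroup G) := by
  have hB' : IsPGroup p (B.subgroupOf C) := hB.comap_of_injective C.subtype C.subtype_injective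
  obtain ⟨S, hS⟩ := hB'.exists_le_sylow
  obtain ⟨c, hc⟩ := MulAction.exists_smul_eq C S (P.subtype hPC)
  refine ⟨c, c.2, fun b hb => ?_⟩
  have h1 : (⟨b, hBC hb⟩ : C) ∈ (S : Subgroup C) := hS (by simpa [mem_subgroupOf] using hb)
  have h2 : MulAut.conj c • (⟨b, hBC hb⟩ : C) ∈ MulAut.conj c • (S : Subgroup C) :=
    Subgroup.smul_mem_pointwise_smul _ _ _ h1
  have h3 : MulAut.conj c • (S : Subgroup C) = ((P.subtype hPC : Sylow p C) : Subgroup C) := by
    rw [← hc]; rfl
  rw [h3, Sylow.coe_subtype, mem_subgroupOf] at h2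
  exact h2

/-- Subgroups of `P` containing the centre are normalized by `P`. -/
theorem le_normalizer_of_center_le (P : Sylow p G) (hQ : Ext p (P : Subgroup G)) (T : Subgroup G)
    (hTP : T ≤ (P : Subgroup G)) (hZT : ∀ z : (P : Subgroup G), z ∈ center (P : Subgroup G) → (z : G) ∈ T) :
    (P : Subgroup G) ≤ normalizer (T : Set G) := by
  have key : ∀ t ∈ (P : Subgroup G), ∀ h ∈ T, t * h * t⁻¹ ∈ T := by
    intro t ht h hh
    have h1 := hZT _ (hQ.hc ⟨t, ht⟩ ⟨h, hTP hh⟩)
    have h2 : ((⁅(⟨t, ht⟩ : (P : Subgroup G)), (⟨h, hTP hh⟩ : (P : Subgroup G))⁆ : (P : Subgroup G)) : G) =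
        t * h * t⁻¹ * h⁻¹ := rfl
    rw [h2] at h1
    have h3 := T.mul_mem h1 hh
    simpa using h3
  intro t ht
  rw [mem_normalizer_iff]
  intro h
  refine ⟨key t ht h, fun hh => ?_⟩
  have := key t⁻¹ (inv_mem ht) _ hh
  simpa [mul_assoc] using this

omit [Finite G] in
theorem mem_conj_iff (A : Subgroup G) (g x : G) :
    x ∈ A.map (MulAut.conj g).toMonoidHom ↔ g⁻¹ * x * g ∈ A := by
  rw [Subgroup.mem_map_equiv]
  simp [MulAut.conj_symm_apply]

omit [Finite G] in
theorem conj_mem_normalizer (A : Subgroup G) (g t : G) (ht : t ∈ normalizer (A : Set G)) :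
    g * t * g⁻¹ ∈ normalizer ((A.map (MulAut.conj g).toMonoidHom : Subgroup G) : Set G) := by
  rw [mem_normalizer_iff]
  intro h
  rw [mem_conj_iff, mem_conj_iff]
  rw [mem_normalizer_iff] at ht
  have h1 := ht (g⁻¹ * h * g)
  have h2 : g⁻¹ * (g * t * g⁻¹ * h * (g * t * g⁻¹)⁻¹) * g = t * (g⁻¹ * h * g) * t⁻¹ := by group
  rw [h2]
  exact h1

/-- If all nontrivial elements of `P` are conjugate, then every line is good. -/
theorem good_of_conj (P : Sylow p G) [Module (ZMod p) (VV (P : Subgroup G))]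
    (hQ : Ext p (P : Subgroup G)) (hcomm : commutator (P : Subgroup G) = center (P : Subgroup G))
    (hconj : ∀ x y : (P : Subgroup G), x ≠ 1 → y ≠ 1 → ∃ g : G, g * (x : G) * g⁻¹ = (y : G))
    (u v : (P : Subgroup G)) (hu : u ∈ center (P : Subgroup G)) (hu1 : u ≠ 1)
    (hv : v ∉ center (P : Subgroup G)) (a : ZMod p) (ha : a ≠ 0) : Good (NN P) a (piV v) := by
  have hcu : Commute u v := (mem_center_iff.mp hu v).symm
  have hcuG : Commute (u : G) (v : G) := by
    exact congrArg Subtype.val hcu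
  have hv1 : v ≠ 1 := fun h => hv (h ▸ one_mem _)
  obtain ⟨g, hg⟩ := hconj v u hv1 hu1
  let A : Subgroup G := closure {(u : G), (v : G)}
  have hAP : A ≤ (P : Subgroup G) := by
    rw [closure_le]
    rintro x (rfl | rfl)
    · exact u.2
    · exact v.2
  have hUA : (u : G) ∈ A := subset_closure (by simp)
  have hVA : (v : G) ∈ A := subset_closure (by simp)
  have hAc : ∀ x ∈ A, x * v = v * x := by
    intro x hx
    have h1 : A ≤ centralizer ({(v : G)} : Set G) := by
      rw [closure_le]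
      rintro x (rfl | rfl)
      · rw [SetLike.mem_coe, mem_centralizer_iff]
        rintro y rfl
        exact hcuG.symm.eq
      · rw [SetLike.mem_coe, mem_centralizer_iff]
        rintro y rfl
        rfl
    have h2 := (mem_centralizer_iff.mp (h1 hx)) v rfl
    exact h2.symm
  let C : Subgroup G := centralizer ({(u : G)} : Set G)
  have hPC : (P : Subgroup G) ≤ C := by
    intro t ht
    rw [mem_centralizer_iff]
    rintro y rfl
    have := mem_center_iff.mp hu ⟨t, ht⟩
    exact (congrArg Subtype.val this).symm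
  let B : Subgroup G := A.map (MulAut.conj g).toMonoidHom
  have hBC : B ≤ C := by
    rintro _ ⟨x, hx, rfl⟩
    rw [mem_centralizer_iff]
    rintro y rfl
    simp only [MulEquiv.coe_toMonoidHom, MulAut.conj_apply]
    have h1 := hAc x hx
    rw [← hg]
    calc g * (v : G) * g⁻¹ * (g * x * g⁻¹) = g * ((v : G) * x) * g⁻¹ := by group
      _ = g * (x * (v : G)) * g⁻¹ := by rw [h1]
      _ = g * x * g⁻¹ * (g * (v : G) * g⁻¹) := by group
  have hBp : IsPGroup p B := (P.isPGroup'.to_le hAP).map _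
  obtain ⟨c, hcC, hcB⟩ := exists_conj_into_sylow P C hPC B hBC hBp
  set g₁ := c * g with hg₁
  have hg₁v : g₁ * (v : G) * g₁⁻¹ = u := by
    have h1 : c * (u : G) * c⁻¹ = u := by
      have := (mem_centralizer_iff.mp hcC) u rfl
      rw [← this]; group
    rw [← h1, ← hg, hg₁]; group
  let A₂ : Subgroup G := A.map (MulAut.conj g₁).toMonoidHom
  have hA₂P : A₂ ≤ (P : Subgroup G) := by
    rintro _ ⟨x, hx, rfl⟩
    have h1 := hcB (g * x * g⁻¹) (mem_map_of_mem _ hx)
    simp only [MulEquiv.coe_toMonoidHom, MulAut.conj_apply]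
    have h2 : g₁ * x * g₁⁻¹ = c * (g * x * g⁻¹) * c⁻¹ := by rw [hg₁]; group
    rw [h2]; exact h1
  have hUA₂ : (u : G) ∈ A₂ := by
    rw [← hg₁v]
    exact mem_map_of_mem (MulAut.conj g₁).toMonoidHom hVA
  have hpowmem : ∀ (T : Subgroup G), (u : G) ∈ T →
      ∀ z : (P : Subgroup G), z ∈ center (P : Subgroup G) → (z : G) ∈ T := by
    intro T hT z hz
    obtain ⟨d, rfl⟩ := hQ.exists_pow_of_center hu hu1 hz
    simpa using T.pow_mem hT d.val
  have hPA : (P : Subgroup G) ≤ normalizer (A : Set G) :=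
    le_normalizer_of_center_le P hQ A hAP (hpowmem A hUA)
  have hPK : (P : Subgroup G) ≤ normalizer (A₂ : Set G) :=
    le_normalizer_of_center_le P hQ A₂ hA₂P (hpowmem A₂ hUA₂)
  have hPK' : ((g₁ • P : Sylow p G) : Subgroup G) ≤ normalizer (A₂ : Set G) := by
    intro x hx
    rw [Sylow.coe_subgroup_smul, Subgroup.mem_pointwise_smul_iff_inv_smul_mem] at hx
    have h1 := conj_mem_normalizer A g₁ _ (hPA hx)
    have h2 : g₁ * ((MulAut.conj g₁)⁻¹ • x) * g₁⁻¹ = x := by
      rw [MulAut.smul_def, ← map_inv, MulAut.conj_apply]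
      group
    rwa [h2] at h1
  obtain ⟨n, hnK, hnP⟩ := exists_smul_eq_sylow P (g₁ • P) (normalizer (A₂ : Set G)) hPK hPK'
  have hm : n * g₁ ∈ normalizer ((P : Subgroup G) : Set G) :=
    Sylow.smul_eq_iff_mem_normalizer.mp (by rw [mul_smul]; exact hnP)
  let αm := normalizerMonoidHom (P : Subgroup G) ⟨n * g₁, hm⟩
  have hαm : (αm v : G) = n * (u : G) * n⁻¹ := by
    change (n * g₁) * (v : G) * (n * g₁)⁻¹ = _
    rw [← hg₁v]; group
  set v₃ : (P : Subgroup G) := αm v with hv₃def
  have hv₃ : v₃ ∉ center (P : Subgroup G) := by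
    intro h
    apply hv
    have := aut_mem_center αm⁻¹ h
    rwa [hv₃def, ← MulAut.mul_apply, inv_mul_cancel, MulAut.one_apply] at this
  have hcu₃ : Commute u v₃ := (mem_center_iff.mp hu v₃).symm
  have hcu₃G : Commute (u : G) (v₃ : G) := congrArg Subtype.val hcu₃
  -- the conjugate of `u` outside the centre
  have hb'A : n⁻¹ * (u : G) * n ∈ A₂ := by
    have := (mem_normalizer_iff.mp (inv_mem hnK) (u : G)).mp hUA₂
    simpa using this
  let b : (P : Subgroup G) := ⟨n⁻¹ * (u : G) * n, hA₂P hb'A⟩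
  have hbG : (b : G) = n⁻¹ * (u : G) * n := rfl
  have hnb : n * (b : G) * n⁻¹ = u := by rw [hbG]; group
  have hb : b ∉ center (P : Subgroup G) := by
    intro hb
    have hb1 : b ≠ 1 := by
      intro h
      apply hu1
      apply Subtype.ext
      rw [← hnb, h]
      simp
    obtain ⟨j, hj⟩ := hQ.exists_pow_of_center hb hb1 hu
    apply hv₃
    have h1 : (v₃ : G) = ((u ^ j.val : (P : Subgroup G)) : G) := by
      rw [hv₃def, hαm]
      have h2 : (u : G) = (b : G) ^ j.val := congrArg Subtype.val hj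
      have h3 : n * (u : G) * n⁻¹ = (n * (b : G) * n⁻¹) ^ j.val := by
        rw [conj_pow, ← h2]
      rw [h3, hnb]
      simp
    rw [Subtype.ext h1]
    exact pow_mem hu _
  have hE21 : ∀ c₀ : ZMod p, ∃ h, Act (u : G) (v₃ : G) h (E21 c₀) := by
    intro c₀
    obtain ⟨t, ht⟩ := hQ.exists_comm_eq hb (pow_mem hu c₀.val)
    refine ⟨n * t * n⁻¹, act_of_E21 ?_ ?_ hcu₃G c₀ ?_ ?_⟩
    · exact congrArg Subtype.val (hQ.hexp u)
    · exact congrArg Subtype.val (hQ.hexp v₃)
    · have h1 : (t : G) * (b : G) * (t : G)⁻¹ = (u : G) ^ c₀.val * (b : G) := by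
        have h2 : ((⁅t, b⁆ : (P : Subgroup G)) : G) = (t : G) * (b : G) * (t : G)⁻¹ * (b : G)⁻¹ := rfl
        have h3 : ((⁅t, b⁆ : (P : Subgroup G)) : G) = (u : G) ^ c₀.val := by
          rw [ht]; simp
        rw [← h3, h2]; group
      have h4 : (v₃ : G) = n * (u : G) * n⁻¹ := hαm
      calc n * t * n⁻¹ * (u : G) * (n * t * n⁻¹)⁻¹
          = n * ((t : G) * (b : G) * (t : G)⁻¹) * n⁻¹ := by rw [hbG]; group
        _ = n * ((u : G) ^ c₀.val * (b : G)) * n⁻¹ := by rw [h1]
        _ = (n * (u : G) * n⁻¹) ^ c₀.val * (n * (b : G) * n⁻¹) := by rw [conj_pow]; group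
        _ = (v₃ : G) ^ c₀.val * u := by rw [hnb, h4]
        _ = u * (v₃ : G) ^ c₀.val := ((hcu₃G.pow_right c₀.val).eq).symm
    · have h5 : (t : G) * (u : G) * (t : G)⁻¹ = u := by
        have := mem_center_iff.mp hu t
        have h6 : (t : G) * (u : G) = (u : G) * (t : G) := congrArg Subtype.val this
        rw [h6]; group
      have h4 : (v₃ : G) = n * (u : G) * n⁻¹ := hαm
      rw [h4]
      calc n * t * n⁻¹ * (n * (u : G) * n⁻¹) * (n * t * n⁻¹)⁻¹
          = n * ((t : G) * (u : G) * (t : G)⁻¹) * n⁻¹ := by group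
        _ = n * (u : G) * n⁻¹ := by rw [h5]
  have hgood₃ := good_of_E21 P hQ hcomm u v₃ hu hu1 hv₃ hE21 a ha
  have hαN : αm ∈ NN P := ⟨_, rfl⟩
  have h7 := hgood₃.map (β := αm⁻¹) (inv_mem hαN)
  rw [rhoAut_piV, hv₃def, ← MulAut.mul_apply, inv_mul_cancel, MulAut.one_apply] at h7
  exact h7


theorem ext_of {Q : Type*} [Group Q] (hE : Cfsg.IsExtraspecial p Q) (hexp : Monoid.exponent Q = p) :
    Ext p Q where
  hc := PGroup.Extraspecial.IsExtraspecial.comm_mem_center hE
  hexp := fun x => by rw [← hexp]; exact Monoid.pow_exponent_eq_one x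
  hZ := hE.2

theorem vv_torsion {Q : Type*} [Group Q] (hexp : ∀ x : Q, x ^ p = 1) (x : VV Q) : p • x = 0 := by
  obtain ⟨t, rfl⟩ := piV_surjective x
  rw [← piV_pow, hexp]
  simp [piV]

/-- The count for all lines. -/
theorem main_conj (P : Sylow p G) (hp : p ≠ 2) (hE : Cfsg.IsExtraspecial p (P : Subgroup G))
    (hcard : Nat.card (P : Subgroup G) = p ^ 3) (hexp : Monoid.exponent (P : Subgroup G) = p)
    (hconj : ∀ x y : (P : Subgroup G), x ≠ 1 → y ≠ 1 → ∃ g : G, g * (x : G) * g⁻¹ = (y : G)) :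
    p ≤ 7 := by
  have hQ := ext_of hE hexp
  have hcomm := hE.1.2.2
  letI : Module (ZMod p) (VV (P : Subgroup G)) :=
    AddCommGroup.zmodModule (n := p) (vv_torsion hQ.hexp)
  have hV : Module.finrank (ZMod p) (VV (P : Subgroup G)) = 2 :=
    finrank_VV hcard (by rw [hcomm]; exact hE.2)
  obtain ⟨a, ha, hord⟩ := exists_primitive p
  have hZ1 : 1 < Nat.card (center (P : Subgroup G)) := by
    rw [hE.2]; exact (Fact.out : p.Prime).one_lt
  haveI : Nontrivial (center (P : Subgroup G)) := Finite.one_lt_card_iff_nontrivial.mp hZ1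
  obtain ⟨⟨u, hu⟩, hu1⟩ := exists_ne (1 : center (P : Subgroup G))
  have hu1' : u ≠ 1 := fun h => hu1 (Subtype.ext h)
  let S : Set (VV (P : Subgroup G)) := Set.range (fun L : ℙ (ZMod p) (VV (P : Subgroup G)) => L.rep)
  have hker : ∀ t : (P : Subgroup G), piV t = 0 ↔ t ∈ center (P : Subgroup G) := by
    intro t; rw [piV_eq_zero_iff, hcomm]
  have h0 : ∀ x ∈ S, x ≠ 0 := by
    rintro _ ⟨L, rfl⟩
    exact L.rep_nonzero
  have hrep : ∀ L L' : ℙ (ZMod p) (VV (P : Subgroup G)), ∀ c : ZMod p, L.rep = c • L'.rep → L = L' := by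
    intro L L' c h
    rw [← L.mk_rep, ← L'.mk_rep, Projectivization.mk_eq_mk_iff' _ _ _ L.rep_nonzero L'.rep_nonzero]
    exact ⟨c, h.symm⟩
  have hS : ∀ u ∈ S, ∀ v ∈ S, ∀ c : ZMod p, u = c • v → u = v := by
    rintro _ ⟨L, rfl⟩ _ ⟨L', rfl⟩ c h
    rw [hrep L L' c h]
  have hgood : ∀ x ∈ S, Good (NN P) a x := by
    intro x hx
    obtain ⟨v, rfl⟩ := piV_surjective x
    have hv : v ∉ center (P : Subgroup G) := fun h => h0 _ hx ((hker v).mpr h)
    exact good_of_conj P hQ hcomm hconj u v hu hu1' hv a ha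
  have hinj : Function.Injective (fun L : ℙ (ZMod p) (VV (P : Subgroup G)) => L.rep) := by
    intro L L' h
    refine hrep L L' 1 ?_
    rw [one_smul]
    exact h
  have hcardS : S.ncard = p + 1 := by
    have h1 : S = (fun L : ℙ (ZMod p) (VV (P : Subgroup G)) => L.rep) '' Set.univ := by
      rw [Set.image_univ]
    rw [h1, Set.ncard_image_of_injective _ hinj, Set.ncard_univ,
      Projectivization.card_of_finrank_two (ZMod p) (VV (P : Subgroup G)) hV, Nat.card_zmod]
  obtain ⟨h12, h2⟩ := count_lines hp hV (NN P) (fun y hy hyp => W_no_p P y hy hyp) hQ hcomm a ha hord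
    S h0 hS hgood
  rw [hcardS] at h12 h2
  by_contra hlt
  push Not at hlt
  have hpp' : p.Prime := Fact.out
  have h11 : 11 ≤ p := by
    by_contra hlt2
    push Not at hlt2
    interval_cases p <;> revert hpp' <;> norm_num
  have h3 : p + 1 ≤ 12 := h12 (by
    intro k hk0 hk hd
    have := Nat.le_of_dvd (by omega) hd
    omega)
  have h4 : p = 11 := by omega
  subst h4
  have h5 : 11 + 1 ≤ 2 := h2 (by
    intro k hk0 hk hd
    interval_cases k <;> omega)
  omega

end Sylow


section SL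

variable {Q : Type*} [Group Q]

/-- The coordinates are injective. -/
theorem Ext.coord_eq_one (hQ : Ext p Q) {u v : Q} (hu : u ∈ center Q) (hu1 : u ≠ 1)
    (hv : v ∉ center Q) (x : Fin 2 → ZMod p) (hx : coord u v x = 1) : x = 0 := by
  have hcu : Commute u v := (mem_center_iff.mp hu v).symm
  have hx1 : x 1 = 0 := by
    by_contra hne
    apply hv
    have h1 : coord u v ((x 1)⁻¹ • x) = 1 := by
      rw [coord_smul (hQ.hexp u) (hQ.hexp v) hcu, hx, one_pow]
    have h2 : ((x 1)⁻¹ • x) 1 = 1 := by simp [hne]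
    unfold coord at h1
    rw [h2, ZMod.val_one, pow_one] at h1
    have h3 : v = (u ^ (((x 1)⁻¹ • x) 0).val)⁻¹ := eq_inv_of_mul_eq_one_right h1
    rw [h3]
    exact inv_mem (pow_mem hu _)
  have hx0 : x 0 = 0 := by
    unfold coord at hx
    rw [hx1] at hx
    simp only [ZMod.val_zero, pow_zero, mul_one] at hx
    have hord : orderOf u = p := orderOf_eq_prime (hQ.hexp u) hu1
    have h1 := orderOf_dvd_of_pow_eq_one hx
    rw [hord] at h1
    have h2 := Nat.eq_zero_of_dvd_of_lt h1 (ZMod.val_lt (x 0))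
    exact (ZMod.val_eq_zero _).mp h2
  ext i
  fin_cases i
  · exact hx0
  · exact hx1

theorem Ext.coord_injective (hQ : Ext p Q) {u v : Q} (hu : u ∈ center Q) (hu1 : u ≠ 1)
    (hv : v ∉ center Q) : Function.Injective (coord (p := p) u v) := by
  intro x y hxy
  have hcu : Commute u v := (mem_center_iff.mp hu v).symm
  have h1 : coord u v (x - y) * coord u v y = coord u v y := by
    rw [← coord_add (hQ.hexp u) (hQ.hexp v) hcu, sub_add_cancel, hxy]
  have h2 : coord u v (x - y) = 1 := by simpa using h1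
  exact sub_eq_zero.mp (hQ.coord_eq_one hu hu1 hv _ h2)

/-- A bijection from `𝔽_p²` to a subgroup of order `p²`: every automorphism of order `p` being induced
gives the lower root elements. -/
theorem E21_of_SL {G : Type*} [Group G] (A : Subgroup G) (hAcard : Nat.card A = p ^ 2)
    [Finite A]
    (u v : G) (hup : u ^ p = 1) (hvp : v ^ p = 1) (hcu : Commute u v) (huA : u ∈ A) (hvA : v ∈ A)
    (hinj : Function.Injective (coord (p := p) u v))
    (hSL : ∀ φ : MulAut A, orderOf φ = p → ∃ g : G, ∀ a : A, (φ a : G) = g * (a : G) * g⁻¹)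
    (c : ZMod p) : ∃ h, Act u v h (E21 c) := by
  classical
  by_cases hc0 : c = 0
  · exact ⟨1, by rw [hc0, E21_zero]; exact Act.one u v⟩
  let f : (Fin 2 → ZMod p) → A := fun x =>
    ⟨coord u v x, A.mul_mem (A.pow_mem huA _) (A.pow_mem hvA _)⟩
  have hfG : ∀ x, (f x : G) = coord u v x := fun x => rfl
  have hfinj : Function.Injective f := by
    intro x y h
    exact hinj (congrArg Subtype.val h)
  have hfadd : ∀ x y, f (x + y) = f x * f y := by
    intro x y
    apply Subtype.ext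
    exact coord_add hup hvp hcu x y
  have hfbij : Function.Bijective f := by
    refine hfinj.bijective_of_nat_card_le ?_
    rw [hAcard, Nat.card_fun, Nat.card_zmod]
    simp
  let e : (Fin 2 → ZMod p) ≃ A := Equiv.ofBijective f hfbij
  have hefx : ∀ x, e.symm (f x) = x := fun x => e.symm_apply_apply x
  have hfe : ∀ a, f (e.symm a) = a := fun a => e.apply_symm_apply a
  have hmat : ∀ (d d' : ZMod p) (x : Fin 2 → ZMod p), E21 d *ᵥ (E21 d' *ᵥ x) = E21 (d + d') *ᵥ x := by
    intro d d' x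
    rw [Matrix.mulVec_mulVec, E21_mul]
  have hone : ∀ x : Fin 2 → ZMod p, E21 (0 : ZMod p) *ᵥ x = x := by
    intro x
    rw [E21_zero, Matrix.one_mulVec]
  let φ : ZMod p → MulAut A := fun d =>
    { toFun := fun a => f (E21 d *ᵥ e.symm a)
      invFun := fun a => f (E21 (-d) *ᵥ e.symm a)
      left_inv := by
        intro a
        beta_reduce
        rw [hefx, hmat, neg_add_cancel, hone, hfe]
      right_inv := by
        intro a
        beta_reduce
        rw [hefx, hmat, add_neg_cancel, hone, hfe]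
      map_mul' := by
        intro a b
        obtain ⟨x, rfl⟩ := hfbij.2 a
        obtain ⟨y, rfl⟩ := hfbij.2 b
        rw [← hfadd, hefx, hefx, hefx, Matrix.mulVec_add, hfadd] }
  have hφ : ∀ d x, φ d (f x) = f (E21 d *ᵥ x) := by
    intro d x
    change f (E21 d *ᵥ e.symm (f x)) = _
    rw [hefx]
  have hpow : ∀ (n : ℕ) x, ((φ c) ^ n) (f x) = f (E21 ((n : ZMod p) * c) *ᵥ x) := by
    intro n x
    induction n generalizing x with
    | zero => simp [hone]
    | succ n ih =>
      rw [pow_succ, MulAut.mul_apply, hφ, ih, hmat]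
      congr 3
      push_cast
      ring
  have hφp : (φ c) ^ p = 1 := by
    ext a
    obtain ⟨x, rfl⟩ := hfbij.2 a
    rw [hpow]
    simp [hone]
  have hφ1 : φ c ≠ 1 := by
    intro h
    have h1 := hφ c ![1, 0]
    rw [h, MulAut.one_apply] at h1
    have h2 := hfinj h1
    have h3 := congrFun h2 1
    apply hc0
    simpa [E21, Matrix.mulVec, dotProduct, Fin.sum_univ_two] using h3.symm
  obtain ⟨g, hg⟩ := hSL (φ c) (orderOf_eq_prime hφp hφ1)
  refine ⟨g, fun x => ?_⟩
  have h1 := hg (f x)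
  rw [hφ, hfG, hfG] at h1
  exact h1.symm

end SL

section SylowSL

variable {G : Type*} [Group G] [Finite G]

/-- Subgroups of order `p²` contain the centre. -/
theorem center_le_of_card (P : Sylow p G) (hE : Cfsg.IsExtraspecial p (P : Subgroup G))
    (hcard : Nat.card (P : Subgroup G) = p ^ 3) (A : Subgroup (P : Subgroup G))
    (hA : Nat.card A = p ^ 2) : center (P : Subgroup G) ≤ A := by
  have hpos : 0 < p := (Fact.out : p.Prime).pos
  have hidx : A.index = p := by
    have h1 := Subgroup.card_mul_index A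
    rw [hA, hcard] at h1
    have h2 : p ^ 2 * A.index = p ^ 2 * p := by rw [h1]; ring
    exact Nat.eq_of_mul_eq_mul_left (by positivity) h2
  have hco : IsCoatom A := by
    constructor
    · intro h
      rw [h, Subgroup.index_top] at hidx
      exact (Fact.out : p.Prime).one_lt.ne hidx
    · intro L hL
      have h1 : L.index ∣ A.index := Subgroup.index_dvd_of_le hL.le
      rw [hidx] at h1
      rcases (Nat.dvd_prime Fact.out).mp h1 with h2 | h2
      · exact Subgroup.index_eq_one.mp h2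
      · exfalso
        have h3 := Subgroup.card_mul_index L
        rw [h2, hcard] at h3
        have h4 : Nat.card L * p = p ^ 2 * p := by rw [h3]; ring
        have h5 : Nat.card L = p ^ 2 := Nat.eq_of_mul_eq_mul_right hpos h4
        have h6 : A = L := Subgroup.eq_of_le_of_card_ge hL.le (by rw [hA, h5])
        exact hL.ne h6
  have := frattini_le_coatom hco
  rwa [hE.1.2.1] at this

/-- Three subgroups of order `p²` with all automorphisms of order `p` induced. -/
theorem main_SL (P : Sylow p G) (hp : p ≠ 2) (hE : Cfsg.IsExtraspecial p (P : Subgroup G))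
    (hcard : Nat.card (P : Subgroup G) = p ^ 3) (hexp : Monoid.exponent (P : Subgroup G) = p)
    (A : Fin 3 → Subgroup G) (hA : Function.Injective A) (hAP : ∀ i, A i ≤ (P : Subgroup G))
    (hAcard : ∀ i, Nat.card ↥(A i) = p ^ 2)
    (hSL : ∀ i, ∀ φ : MulAut ↥(A i), orderOf φ = p →
      ∃ g : G, ∀ a : ↥(A i), (φ a : G) = g * (a : G) * g⁻¹) :
    p ≤ 13 := by
  have hQ := ext_of hE hexp
  have hcomm := hE.1.2.2
  letI : Module (ZMod p) (VV (P : Subgroup G)) :=
    AddCommGroup.zmodModule (n := p) (vv_torsion hQ.hexp)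
  have hV : Module.finrank (ZMod p) (VV (P : Subgroup G)) = 2 :=
    finrank_VV hcard (by rw [hcomm]; exact hE.2)
  obtain ⟨a, ha, hord⟩ := exists_primitive p
  have hZ1 : 1 < Nat.card (center (P : Subgroup G)) := by
    rw [hE.2]; exact (Fact.out : p.Prime).one_lt
  haveI : Nontrivial (center (P : Subgroup G)) := Finite.one_lt_card_iff_nontrivial.mp hZ1
  obtain ⟨⟨u, hu⟩, hu1⟩ := exists_ne (1 : center (P : Subgroup G))
  have hu1' : u ≠ 1 := fun h => hu1 (Subtype.ext h)
  have hker : ∀ t : (P : Subgroup G), piV t = 0 ↔ t ∈ center (P : Subgroup G) := by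
    intro t; rw [piV_eq_zero_iff, hcomm]
  -- the subgroups inside `P`
  have hA' : ∀ i, Nat.card ↥((A i).subgroupOf (P : Subgroup G)) = p ^ 2 := by
    intro i
    rw [← hAcard i]
    exact Nat.card_congr (Subgroup.subgroupOfEquivOfLe (hAP i)).toEquiv
  have hcenA : ∀ i, ∀ z : (P : Subgroup G), z ∈ center (P : Subgroup G) → (z : G) ∈ A i := by
    intro i z hz
    have := center_le_of_card P hE hcard _ (hA' i) hz
    exact Subgroup.mem_subgroupOf.mp this
  have hexv : ∀ i, ∃ v : (P : Subgroup G), (v : G) ∈ A i ∧ v ∉ center (P : Subgroup G) := by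
    intro i
    by_contra hcon
    push Not at hcon
    have h1 : (A i).subgroupOf (P : Subgroup G) ≤ center (P : Subgroup G) := by
      intro x hx
      exact hcon x (Subgroup.mem_subgroupOf.mp hx)
    have h2 := Subgroup.card_le_of_le h1
    rw [hA' i, hE.2] at h2
    have hp2 := (Fact.out : p.Prime).two_le
    nlinarith
  choose v hvA hvZ using hexv
  have hgood : ∀ i, Good (NN P) a (piV (v i)) := by
    intro i
    refine good_of_E21 P hQ hcomm u (v i) hu hu1' (hvZ i) ?_ a ha
    intro c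
    have hinj : Function.Injective (coord (p := p) (u : G) (v i : G)) := by
      intro x y hxy
      apply hQ.coord_injective hu hu1' (hvZ i)
      apply Subtype.ext
      have h1 := coord_map (P : Subgroup G).subtype u (v i) x
      have h2 := coord_map (P : Subgroup G).subtype u (v i) y
      simp only [Subgroup.subtype_apply] at h1 h2
      rw [← h1, ← h2, hxy]
    exact E21_of_SL (A i) (hAcard i) (u : G) (v i : G) (congrArg Subtype.val (hQ.hexp u))
      (congrArg Subtype.val (hQ.hexp (v i))) (congrArg Subtype.val (mem_center_iff.mp hu (v i)).symm)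
      (hcenA i u hu) (hvA i) hinj (hSL i) c
  -- distinct lines
  have hlines : ∀ i j (c : ZMod p), piV (v i) = c • piV (v j) → i = j := by
    intro i j c h
    apply hA
    have h1 : (v i) * ((v j) ^ c.val)⁻¹ ∈ center (P : Subgroup G) := by
      rw [← hker, piV_mul]
      have h2 : piV ((v j) ^ c.val)⁻¹ = - piV ((v j) ^ c.val) := by
        have h3 := piV_mul ((v j) ^ c.val)⁻¹ ((v j) ^ c.val)
        rw [inv_mul_cancel] at h3
        have h4 : piV (1 : (P : Subgroup G)) = 0 := by simp [piV]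
        rw [h4] at h3
        exact eq_neg_of_add_eq_zero_left h3.symm
      rw [h2, piV_pow_val, h, add_neg_cancel]
    have hvij : (v i : G) ∈ A j := by
      have h2 := (A j).mul_mem (hcenA j _ h1) ((A j).pow_mem (hvA j) c.val)
      simpa using h2
    have hle : A i ≤ A j := by
      have hinj : Function.Injective (coord (p := p) (u : G) (v i : G)) := by
        intro x y hxy
        apply hQ.coord_injective hu hu1' (hvZ i)
        apply Subtype.ext
        have h1 := coord_map (P : Subgroup G).subtype u (v i) x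
        have h2 := coord_map (P : Subgroup G).subtype u (v i) y
        simp only [Subgroup.subtype_apply] at h1 h2
        rw [← h1, ← h2, hxy]
      let f : (Fin 2 → ZMod p) → A i := fun x =>
        ⟨coord (u : G) (v i : G) x,
          (A i).mul_mem ((A i).pow_mem (hcenA i u hu) _) ((A i).pow_mem (hvA i) _)⟩
      have hfinj : Function.Injective f := fun x y h => hinj (congrArg Subtype.val h)
      have hfbij : Function.Bijective f := by
        refine hfinj.bijective_of_nat_card_le ?_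
        rw [hAcard i, Nat.card_fun, Nat.card_zmod]
        simp
      intro x hx
      obtain ⟨w, hw⟩ := hfbij.2 ⟨x, hx⟩
      have h3 : x = coord (u : G) (v i : G) w := (congrArg Subtype.val hw).symm
      rw [h3]
      exact (A j).mul_mem ((A j).pow_mem (hcenA j u hu) _) ((A j).pow_mem hvij _)
    exact Subgroup.eq_of_le_of_card_ge hle (by rw [hAcard i, hAcard j])
  let S : Set (VV (P : Subgroup G)) := Set.range (fun i => piV (v i))
  have h0 : ∀ x ∈ S, x ≠ 0 := by
    rintro _ ⟨i, rfl⟩ h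
    exact hvZ i ((hker _).mp h)
  have hS : ∀ x ∈ S, ∀ y ∈ S, ∀ c : ZMod p, x = c • y → x = y := by
    rintro _ ⟨i, rfl⟩ _ ⟨j, rfl⟩ c h
    have := hlines i j c h
    simp only at *
    rw [this]
  have hgoodS : ∀ x ∈ S, Good (NN P) a x := by
    rintro _ ⟨i, rfl⟩
    exact hgood i
  have hinjS : Function.Injective (fun i => piV (v i)) := by
    intro i j h
    exact hlines i j 1 (by rw [one_smul]; exact h)
  have hcardS : S.ncard = 3 := by
    have h1 : S = (fun i => piV (v i)) '' Set.univ := by rw [Set.image_univ]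
    rw [h1, Set.ncard_image_of_injective _ hinjS, Set.ncard_univ]
    simp
  obtain ⟨-, h2⟩ := count_lines hp hV (NN P) (fun y hy hyp => W_no_p P y hy hyp) hQ hcomm a ha hord
    S h0 hS hgoodS
  rw [hcardS] at h2
  by_contra hlt
  push Not at hlt
  have hpp' : p.Prime := Fact.out
  have h17 : 17 ≤ p := by
    by_contra hlt2
    push Not at hlt2
    interval_cases p <;> revert hpp' <;> norm_num
  have h3 : 3 ≤ 2 := h2 (by
    intro k hk0 hk hd
    have := Nat.le_of_dvd (by omega) hd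
    omega)
  omega

end SylowSL

end Cfsg.Agent.Lib.FrobRep.ExtraP3
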