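import Mathlib
import Cfsg.Agent.Lib.FrobRep.PLinear

/-!
# Derived length of cross-characteristic `p`-subgroups of linear groups over finite fields
-/

set_option autoImplicit false
set_option linter.style.haveILetI false

open Polynomial

universe u v w

namespace Cfsg.Agent.Lib.FrobRep.PLinear

open Cfsg.Agent.Lib.FrobRep

/-- An element of order `p` forces the degree over a finite field to be at least `e`. -/
theorem order_le_finrank {F : Type u} [Field F] [Fintype F] {K : Type*} [Field K] [Algebra F K]
    [FiniteDimensional F K] {p : ℕ} [hp : Fact p.Prime] (r : K) (hr1 : r ≠ 1) (hrp : r ^ p = 1) :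
    orderOf ((Fintype.card F : ℕ) : ZMod p) ≤ Module.finrank F K := by
  classical
  haveI : Finite K := Module.finite_of_finite F
  haveI := Fintype.ofFinite K
  have hord : orderOf r = p := orderOf_eq_prime hrp hr1
  have hr0 : r ≠ 0 := by
    intro h
    rw [h, zero_pow hp.out.ne_zero] at hrp
    exact zero_ne_one hrp
  have h1 : r ^ (Fintype.card K - 1) = 1 := FiniteField.pow_card_sub_one_eq_one r hr0
  have h2 : p ∣ Fintype.card K - 1 := hord ▸ orderOf_dvd_of_pow_eq_one h1
  have h3 : Fintype.card K = Fintype.card F ^ Module.finrank F K :=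
    Module.card_eq_pow_finrank (K := F) (V := K)
  have hpos : 0 < Module.finrank F K := Module.finrank_pos
  have h4 : ((Fintype.card F : ℕ) : ZMod p) ^ Module.finrank F K = 1 := by
    have h5 : 1 ≤ Fintype.card K := Fintype.card_pos
    have h6 : ((Fintype.card K : ℕ) : ZMod p) = 1 := by
      obtain ⟨c, hc⟩ := h2
      have : Fintype.card K = p * c + 1 := by omega
      rw [this]
      push_cast
      simp
    rw [← h6, h3]
    push_cast
    rfl
  exact Nat.le_of_dvd hpos (orderOf_dvd_of_pow_eq_one h4)

/-- A nontrivial representation of a `p`-group has a central element of order `p` modulo the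
kernel. -/
theorem exists_central_order_p {p : ℕ} [hp : Fact p.Prime] {F : Type u} [Field F] {V : Type v}
    [AddCommGroup V] [Module F V] {P : Type w} [Group P] [Finite P] (hP : IsPGroup p P)
    (ρ : P →* Module.End F V) (hρ : ∃ g, ρ g ≠ 1) :
    ∃ z : P, ρ z ≠ 1 ∧ (∀ g, Commute (ρ g) (ρ z)) ∧ (ρ z) ^ p = 1 := by
  classical
  let D := ρ.ker
  let ρQ : (P ⧸ D) →* Module.End F V := QuotientGroup.lift D ρ le_rfl
  have hρQ : ∀ a : P, ρQ (a : P ⧸ D) = ρ a := fun _ => rfl
  have hQinj : Function.Injective ρQ := by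
    intro a b hab
    induction a using QuotientGroup.induction_on with
    | H a =>
      induction b using QuotientGroup.induction_on with
      | H b =>
        rw [hρQ, hρQ] at hab
        rw [QuotientGroup.eq, MonoidHom.mem_ker, map_mul, ← hab]
        rw [← map_mul, inv_mul_cancel, map_one]
  have hPQ : IsPGroup p (P ⧸ D) := hP.to_quotient D
  haveI : Nontrivial (P ⧸ D) := by
    obtain ⟨g, hg⟩ := hρ
    refine ⟨⟨(g : P ⧸ D), 1, ?_⟩⟩
    intro h
    apply hg
    have := congrArg ρQ h
    rwa [hρQ, map_one] at this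
  haveI : Nontrivial (Subgroup.center (P ⧸ D)) := hPQ.center_nontrivial
  have hZp : IsPGroup p (Subgroup.center (P ⧸ D)) := hPQ.to_subgroup _
  have hdvd : p ∣ Nat.card (Subgroup.center (P ⧸ D)) := by
    obtain ⟨m, hm⟩ := IsPGroup.iff_card.1 hZp
    have h1 : 1 < Nat.card (Subgroup.center (P ⧸ D)) := Finite.one_lt_card
    rw [hm] at h1 ⊢
    rcases m with _ | m
    · simp at h1
    · exact dvd_pow_self p (by omega)
  obtain ⟨x, hx⟩ := exists_prime_orderOf_dvd_card' p hdvd
  obtain ⟨z, hz⟩ := QuotientGroup.mk_surjective (x : P ⧸ D)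
  refine ⟨z, ?_, ?_, ?_⟩
  · intro h
    have h1 : ρQ (x : P ⧸ D) = ρQ 1 := by
      rw [← hz, hρQ, map_one, h]
    have h2 : (x : P ⧸ D) = 1 := hQinj h1
    have h3 : x = 1 := Subtype.ext h2
    rw [h3, orderOf_one] at hx
    exact hp.out.one_lt.ne hx
  · intro g
    have h1 := Subgroup.mem_center_iff.1 x.2 (g : P ⧸ D)
    show ρ g * ρ z = ρ z * ρ g
    rw [← hρQ g, ← hρQ z, ← map_mul, ← map_mul, hz, h1]
  · have h1 : x ^ p = 1 := by
      rw [← hx]
      exact pow_orderOf_eq_one x
    have h2 : (x : P ⧸ D) ^ p = 1 := by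
      have := congrArg Subtype.val h1
      simpa using this
    rw [← hρQ z, hz, ← map_pow, h2, map_one]

theorem cast_ne_zero_of_not_dvd_card {F : Type u} [Field F] [Fintype F] {p : ℕ} [hp : Fact p.Prime]
    (hpq : ¬ p ∣ Fintype.card F) : ((p : ℕ) : F) ≠ 0 := by
  intro h
  apply hpq
  have h1 : ringChar F ∣ p := (CharP.cast_eq_zero_iff F (ringChar F) p).1 h
  obtain ⟨m, hm, hq⟩ := FiniteField.card F (ringChar F)
  have h2 : ringChar F = p := by
    rcases (Nat.dvd_prime hp.out).1 h1 with h3 | h3
    · exact absurd h3 hm.ne_one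
    · exact h3
  rw [hq, h2]
  exact dvd_pow_self p m.ne_zero

/-- The bound in cross characteristic over a finite field. -/
theorem cross_bound (p : ℕ) [hp : Fact p.Prime] (F : Type u) [Field F] [Fintype F]
    (hpq : ¬ p ∣ Fintype.card F) (n : ℕ) :
    ∀ (k : ℕ) (V : Type v) [AddCommGroup V] [Module F V] [FiniteDimensional F V]
      (P : Type w) [Group P] [Finite P], IsPGroup p P → ∀ ρ : P →* Module.End F V,
      Module.finrank F V = n → n < orderOf ((Fintype.card F : ℕ) : ZMod p) * p ^ k →
      ∀ g ∈ derivedSeries P k, ρ g = 1 := by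
  classical
  have hpF : ((p : ℕ) : F) ≠ 0 := cast_ne_zero_of_not_dvd_card hpq
  induction n using Nat.strong_induction_on with
  | _ n IH =>
    intro k V _ _ _ P _ _ hP ρ hn hk g hg
    by_cases hV : Nontrivial V
    swap
    · rw [not_nontrivial_iff_subsingleton] at hV
      apply LinearMap.ext
      intro v
      exact Subsingleton.elim _ _
    by_cases hred : ∃ U : Submodule F V, (∀ g, ∀ x ∈ U, ρ g x ∈ U) ∧ U ≠ ⊥ ∧ U ≠ ⊤
    · obtain ⟨U, hU, hbot, htop⟩ := hred
      have h1 : Module.finrank F U < n := hn ▸ Submodule.finrank_lt htop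
      have h2 : 0 < Module.finrank F U := by
        rw [Module.finrank_pos_iff]
        exact Submodule.nontrivial_iff_ne_bot.2 hbot
      have h3 : Module.finrank F (V ⧸ U) + Module.finrank F U = n := by
        rw [← hn]
        exact Submodule.finrank_quotient_add_finrank U
      have h4 := IH _ h1 k U P hP (subRep ρ U hU) rfl (h1.trans hk) g hg
      have h5 := IH (Module.finrank F (V ⧸ U)) (by omega) k (V ⧸ U) P hP (quotRep ρ U hU) rfl
        (by omega) g hg
      apply eq_one_of_chain hP ρ hpF g U
      · intro u hu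
        have := LinearMap.congr_fun h4 ⟨u, hu⟩
        exact congrArg Subtype.val this
      · intro v
        have := LinearMap.congr_fun h5 (Submodule.Quotient.mk v)
        rw [quotRep_mk] at this
        exact (Submodule.Quotient.eq U).1 this
    have hirr : ∀ U : Submodule F V, (∀ g, ∀ x ∈ U, ρ g x ∈ U) → U = ⊥ ∨ U = ⊤ := by
      intro U hU
      by_contra hcon
      push Not at hcon
      exact hred ⟨U, hU, hcon.1, hcon.2⟩
    by_contra hne
    obtain ⟨z, hz1, hzc, hzp⟩ := exists_central_order_p hP ρ ⟨g, hne⟩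
    set T := ρ z with hTdef
    have hint : IsIntegral F T := Algebra.IsIntegral.isIntegral T
    have hμ := irreducible_minpoly ρ hirr T hzc
    set μ := minpoly F T with hμdef
    have hTμ : aeval T μ = 0 := minpoly.aeval F T
    letI : Fact (Irreducible μ) := ⟨hμ⟩
    letI instM : Module (AdjoinRoot μ) V := extModule μ T hTμ
    haveI instT : IsScalarTower F (AdjoinRoot μ) V := ext_tower μ T hTμ
    haveI : Module.Finite F (AdjoinRoot μ) := (AdjoinRoot.powerBasis hμ.ne_zero).finite
    haveI : Module.Finite (AdjoinRoot μ) V := Module.Finite.of_restrictScalars_finite F _ _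
    have hdeg : Module.finrank F (AdjoinRoot μ) = μ.natDegree := finrank_quotient_span_eq_natDegree
    have hsm : ∀ (a : AdjoinRoot μ) (x : V), a • x = extHom μ T hTμ a x := fun _ _ => rfl
    let ρK : P →* Module.End (AdjoinRoot μ) V :=
      liftRep ρ (fun g a x => by
        rw [hsm, hsm]
        exact LinearMap.congr_fun (commute_extHom (hzc g) μ hTμ a).eq x)
    have hroot : extHom μ T hTμ (AdjoinRoot.root μ) = T := by
      have := extHom_mk μ T hTμ X
      rwa [AdjoinRoot.mk_X, aeval_X] at this
    have hrp : (AdjoinRoot.root μ) ^ p = 1 := by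
      have h1 : μ ∣ X ^ p - 1 := by
        apply minpoly.dvd
        simp [hzp]
      have h2 : AdjoinRoot.mk μ (X ^ p - 1) = 0 := AdjoinRoot.mk_eq_zero.2 h1
      rw [map_sub, map_pow, AdjoinRoot.mk_X, map_one] at h2
      exact sub_eq_zero.1 h2
    have hr1 : (AdjoinRoot.root μ) ≠ 1 := by
      intro h
      apply hz1
      rw [← hroot, h, map_one]
    have hed := order_le_finrank (F := F) (AdjoinRoot.root μ) hr1 hrp
    rw [hdeg] at hed
    have hmul := Module.finrank_mul_finrank F (AdjoinRoot μ) V
    rw [hdeg, hn] at hmul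
    have hlt : Module.finrank (AdjoinRoot μ) V < p ^ k := by
      have hdpos : 0 < μ.natDegree := hμ.natDegree_pos
      have h1 : μ.natDegree * Module.finrank (AdjoinRoot μ) V <
          μ.natDegree * p ^ k := by
        rw [hmul]
        exact lt_of_lt_of_le hk (Nat.mul_le_mul_right _ hed)
      exact Nat.lt_of_mul_lt_mul_left h1
    have hpK : ((p : ℕ) : AdjoinRoot μ) ≠ 0 := by
      have : ((p : ℕ) : AdjoinRoot μ) = algebraMap F (AdjoinRoot μ) (p : F) := by simp
      rw [this]
      exact (map_ne_zero_iff _ (algebraMap F (AdjoinRoot μ)).injective).2 hpF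
    have h := bound p (Module.finrank (AdjoinRoot μ) V) k (AdjoinRoot μ) V P hP ρK hpK rfl hlt g hg
    apply hne
    apply LinearMap.ext
    intro x
    exact LinearMap.congr_fun h x

end Cfsg.Agent.Lib.FrobRep.PLinear
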