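import Cfsg.Agent.Lib.FrobRep.TwoFix

/-!
# Large stabilizers in `p'`-subgroups of `PGL₂(p)`

A subgroup `W` of `GL(V)`, `V` a plane over `𝔽_p` (`p` odd), without elements of order `p`: at most
two lines of `V` are fixed by an element of `W` of projective order at least 6, and at most twelve by
an element of projective order at least 4.
-/

set_option autoImplicit false
set_option linter.unusedSectionVars false
set_option linter.style.haveILetI false

open scoped LinearAlgebra.Projectivization Matrix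

namespace Cfsg.Agent.Lib.FrobRep.PGLBound

open Projectivization

section general

variable {K : Type*} [Field K]

/-- An endomorphism of the plane with two eigenvectors for distinct eigenvalues fixes exactly two
points of the projective line. -/
theorem card_fixed_two [Finite K] (E : Module.End K (Fin 2 → K)) (σ : Equiv.Perm (ℙ K (Fin 2 → K)))
    (hE : ∀ w, w ≠ 0 → E w ≠ 0)
    (hσ : ∀ w (hw : w ≠ 0), σ (mk K w hw) = mk K (E w) (hE w hw))
    (l m : K) (hne : l ≠ m) (v₁ v₂ : Fin 2 → K) (h₁ : v₁ ≠ 0) (h₂ : v₂ ≠ 0)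
    (hv₁ : E v₁ = l • v₁) (hv₂ : E v₂ = m • v₂) :
    Nat.card (Function.fixedPoints σ) = 2 := by
  classical
  have hind : LinearIndependent K ![v₁, v₂] := by
    rw [LinearIndependent.pair_iff]
    intro s t hst
    have h3 : E (s • v₁ + t • v₂) = 0 := by rw [hst, map_zero]
    rw [map_add, map_smul, map_smul, hv₁, hv₂] at h3
    have h4 : (t * (m - l)) • v₂ = 0 := by
      have h5 : l • (s • v₁ + t • v₂) = 0 := by rw [hst, smul_zero]
      have h6 : s • l • v₁ + t • m • v₂ - l • (s • v₁ + t • v₂) = 0 := by rw [h3, h5, sub_zero]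
      have h7 : s • l • v₁ + t • m • v₂ - l • (s • v₁ + t • v₂) = (t * (m - l)) • v₂ := by
        rw [smul_add, smul_smul, smul_smul, smul_smul, smul_smul, mul_comm s l, mul_sub, sub_smul,
          mul_comm l t]
        abel
      rwa [h7] at h6
    have ht : t = 0 := by
      rcases smul_eq_zero.mp h4 with h | h
      · rcases mul_eq_zero.mp h with h | h
        · exact h
        · exact absurd (sub_eq_zero.mp h).symm hne
      · exact absurd h h₂
    refine ⟨?_, ht⟩
    rw [ht, zero_smul, add_zero] at hst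
    rcases smul_eq_zero.mp hst with h | h
    · exact h
    · exact absurd h h₁
  have hspan : Submodule.span K (Set.range ![v₁, v₂]) = ⊤ :=
    hind.span_eq_top_of_card_eq_finrank' (by simp)
  have hspan' : ∀ u : Fin 2 → K, ∃ a b : K, a • v₁ + b • v₂ = u := by
    intro u
    have hu : u ∈ Submodule.span K (Set.range ![v₁, v₂]) := by rw [hspan]; trivial
    have hr : Set.range ![v₁, v₂] = {v₁, v₂} := by
      ext x
      simp only [Set.mem_range, Fin.exists_fin_two, Set.mem_insert_iff, Set.mem_singleton_iff,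
        Matrix.cons_val_zero, Matrix.cons_val_one]
      constructor
      · rintro (h | h)
        · exact Or.inl h.symm
        · exact Or.inr h.symm
      · rintro (h | h)
        · exact Or.inl h.symm
        · exact Or.inr h.symm
    rw [hr] at hu
    exact Submodule.mem_span_pair.mp hu
  have hfix : Function.fixedPoints σ = {mk K v₁ h₁, mk K v₂ h₂} := by
    ext L
    induction L using Projectivization.ind with
    | h u hu =>
    constructor
    · intro hL
      have h3 : mk K (E u) (hE u hu) = mk K u hu := by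
        rw [← hσ]; exact hL
      obtain ⟨c, hc⟩ := (mk_eq_mk_iff' K _ _ (hE u hu) hu).mp h3
      obtain ⟨a, b', hab⟩ := hspan' u
      have h4 : a • (c - l) • v₁ + b' • (c - m) • v₂ = 0 := by
        have h5 : E u = a • l • v₁ + b' • m • v₂ := by
          rw [← hab, map_add, map_smul, map_smul, hv₁, hv₂]
        have h6 : c • u = a • c • v₁ + b' • c • v₂ := by
          rw [← hab, smul_add, smul_comm c a, smul_comm c b']
        rw [h5, h6] at hc
        rw [sub_smul, sub_smul, smul_sub, smul_sub, sub_add_sub_comm, hc, sub_self]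
      have h7 : (a * (c - l)) = 0 ∧ (b' * (c - m)) = 0 := by
        apply LinearIndependent.pair_iff.mp hind
        rw [mul_smul, mul_smul]
        exact h4
      have hcase : a = 0 ∨ b' = 0 := by
        by_contra hcon
        push Not at hcon
        have h8 : c - l = 0 := (mul_eq_zero.mp h7.1).resolve_left hcon.1
        have h9 : c - m = 0 := (mul_eq_zero.mp h7.2).resolve_left hcon.2
        exact hne ((sub_eq_zero.mp h8).symm.trans (sub_eq_zero.mp h9))
      rcases hcase with h | h
      · right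
        rw [h, zero_smul, zero_add] at hab
        change mk K u hu = mk K v₂ h₂
        rw [mk_eq_mk_iff' K _ _ hu h₂]
        exact ⟨b', hab⟩
      · left
        rw [h, zero_smul, add_zero] at hab
        change mk K u hu = mk K v₁ h₁
        rw [mk_eq_mk_iff' K _ _ hu h₁]
        exact ⟨a, hab⟩
    · rintro (h | h)
      · have h' : mk K u hu = mk K v₁ h₁ := h
        rw [h']
        change σ _ = _
        rw [hσ, mk_eq_mk_iff' K _ _ (hE _ h₁) h₁]
        exact ⟨l, hv₁.symm⟩
      · have h' : mk K u hu = mk K v₂ h₂ := h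
        rw [h']
        change σ _ = _
        rw [hσ, mk_eq_mk_iff' K _ _ (hE _ h₂) h₂]
        exact ⟨m, hv₂.symm⟩
  have hne' : mk K v₁ h₁ ≠ mk K v₂ h₂ := by
    intro h
    obtain ⟨a, ha⟩ := (mk_eq_mk_iff' K _ _ h₁ h₂).mp h
    have h3 : E v₁ = m • v₁ := by rw [← ha, map_smul, hv₂, smul_comm]
    rw [hv₁] at h3
    have h4 : (l - m) • v₁ = 0 := by rw [sub_smul, h3, sub_self]
    rcases smul_eq_zero.mp h4 with h5 | h5
    · exact hne (sub_eq_zero.mp h5)
    · exact h₁ h5
  rw [hfix, Nat.card_coe_set_eq, Set.ncard_pair hne']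

end general

section main

variable {p : ℕ} [Fact p.Prime] {V : Type*} [AddCommGroup V] [Module (ZMod p) V]

/-- Scalar automorphisms. -/
def IsScalar (y : V ≃ₗ[ZMod p] V) : Prop := ∃ c : ZMod p, ∀ v, y v = c • v

variable (b : Module.Basis (Fin 2) (ZMod p) V)

/-- The matrix of an automorphism. -/
noncomputable def matHom : (V ≃ₗ[ZMod p] V) →* Matrix (Fin 2) (Fin 2) (ZMod p) :=
  ((LinearMap.toMatrixAlgEquiv b : _ ≃ₐ[ZMod p] _) : Module.End (ZMod p) V →* _).comp
    LinearEquiv.automorphismGroup.toLinearMapMonoidHom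

theorem matHom_apply (y : V ≃ₗ[ZMod p] V) :
    matHom b y = LinearMap.toMatrix b b y.toLinearMap := rfl

theorem matHom_injective : Function.Injective (matHom b) := by
  intro y z h
  rw [matHom_apply, matHom_apply] at h
  have := (LinearMap.toMatrix b b).injective h
  exact LinearEquiv.toLinearMap_injective this

theorem matHom_mulVec (y : V ≃ₗ[ZMod p] V) (v : V) :
    matHom b y *ᵥ (b.repr v) = b.repr (y v) :=
  LinearMap.toMatrix_mulVec_repr b b y.toLinearMap v

theorem matHom_scalar (y : V ≃ₗ[ZMod p] V) (c : ZMod p) (h : ∀ v, y v = c • v) :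
    matHom b y = c • (1 : Matrix (Fin 2) (Fin 2) (ZMod p)) := by
  have h1 : y.toLinearMap = c • LinearMap.id := by
    ext v; simp [h]
  rw [matHom_apply, h1, map_smul, LinearMap.toMatrix_id]

theorem isScalar_of_mat (y : V ≃ₗ[ZMod p] V) (c : ZMod p)
    (h : matHom b y = c • (1 : Matrix (Fin 2) (Fin 2) (ZMod p))) : IsScalar y := by
  refine ⟨c, fun v => b.repr.injective (DFunLike.coe_injective ?_)⟩
  rw [← matHom_mulVec, h, map_smul, Matrix.smul_mulVec, Matrix.one_mulVec]
  rfl

/-- In characteristic `p`, a matrix with a unique eigenvalue `c` has `p`-th power `c`. -/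
theorem mat_pow_char (A : Matrix (Fin 2) (Fin 2) (ZMod p)) (c : ZMod p)
    (h : (A - c • (1 : Matrix (Fin 2) (Fin 2) (ZMod p))) ^ 2 = 0) :
    A ^ p = c • (1 : Matrix (Fin 2) (Fin 2) (ZMod p)) := by
  have hp2 : 2 ≤ p := (Fact.out : p.Prime).two_le
  set N := A - c • (1 : Matrix (Fin 2) (Fin 2) (ZMod p)) with hN
  have hA : A = c • (1 : Matrix (Fin 2) (Fin 2) (ZMod p)) + N := by rw [hN]; abel
  have hcomm : Commute (c • (1 : Matrix (Fin 2) (Fin 2) (ZMod p))) N :=
    (Commute.one_left N).smul_left c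
  have hNp : N ^ p = 0 := pow_eq_zero_of_le hp2 h
  rw [hA, add_pow_char_of_commute p hcomm, hNp, add_zero, smul_pow, one_pow, ZMod.pow_card]

/-- An element of `W` with zero discriminant is scalar. -/
theorem disc_ne_zero (hp : p ≠ 2) (W : Subgroup (V ≃ₗ[ZMod p] V))
    (hW : ∀ y ∈ W, y ^ p = 1 → y = 1) (y : V ≃ₗ[ZMod p] V) (hy : y ∈ W)
    (hδ : (matHom b y 0 0 + matHom b y 1 1) ^ 2 - 4 * (matHom b y).det = 0) : IsScalar y := by
  set A := matHom b y with hA
  have h2 : (2 : ZMod p) ≠ 0 := by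
    intro h
    have : ((2 : ℕ) : ZMod p) = 0 := by exact_mod_cast h
    rw [ZMod.natCast_eq_zero_iff] at this
    exact hp ((Nat.prime_dvd_prime_iff_eq Fact.out Nat.prime_two).mp this)
  set c : ZMod p := (A 0 0 + A 1 1) / 2 with hc
  have hc2 : 2 * c = A 0 0 + A 1 1 := by rw [hc]; field_simp
  have hdet : A.det = c ^ 2 := by
    have h4 : (4 : ZMod p) ≠ 0 := by
      have : (4 : ZMod p) = 2 * 2 := by norm_num
      rw [this]; exact mul_ne_zero h2 h2
    have : 4 * A.det = 4 * c ^ 2 := by
      have h5 : 4 * c ^ 2 = (2 * c) ^ 2 := by ring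
      rw [h5, hc2]; linear_combination -hδ
    exact mul_left_cancel₀ h4 this
  have hdet0 : A.det ≠ 0 := by
    intro h0
    have hu : IsUnit A := by
      refine IsUnit.of_mul_eq_one (matHom b y⁻¹) ?_
      rw [← map_mul, mul_inv_cancel, map_one]
    have := (Matrix.isUnit_iff_isUnit_det A).mp hu
    rw [h0] at this
    exact not_isUnit_zero this
  have hc0 : c ≠ 0 := by
    intro h0
    apply hdet0
    rw [hdet, h0]; ring
  have hsq : (A - c • (1 : Matrix (Fin 2) (Fin 2) (ZMod p))) ^ 2 = 0 := by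
    rw [Matrix.det_fin_two] at hdet
    rw [sq]
    ext i j
    fin_cases i <;> fin_cases j <;>
      simp [Matrix.mul_apply, Fin.sum_univ_two, Matrix.sub_apply, Matrix.smul_apply,
        Matrix.one_apply]
    · linear_combination -hdet - (A 0 0) * hc2
    · linear_combination -(A 0 1) * hc2
    · linear_combination -(A 1 0) * hc2
    · linear_combination -hdet - (A 1 1) * hc2
  have hpow : A ^ p = c • (1 : Matrix (Fin 2) (Fin 2) (ZMod p)) := mat_pow_char A c hsq
  have hcp : c ^ (p - 1) = 1 := ZMod.pow_card_sub_one_eq_one hc0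
  have hy1 : (y ^ (p - 1)) ^ p = 1 := by
    apply matHom_injective b
    rw [← pow_mul, mul_comm, pow_mul, map_pow, map_pow, ← hA, hpow, smul_pow, one_pow, hcp,
      one_smul, map_one]
  have hy2 : y ^ (p - 1) = 1 := hW _ (W.pow_mem hy _) hy1
  have hy3 : y ^ p = y := by
    have hp2 : 1 ≤ p := (Fact.out : p.Prime).one_le
    calc y ^ p = y ^ ((p - 1) + 1) := by rw [Nat.sub_add_cancel hp2]
      _ = y ^ (p - 1) * y := pow_succ _ _
      _ = y := by rw [hy2, one_mul]
  apply isScalar_of_mat b y c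
  rw [← hA, ← hpow, hA, ← map_pow, hy3]

/-- Eigenvectors from roots of the characteristic polynomial. -/
theorem exists_eigenvector {K : Type*} [Field K] (B : Matrix (Fin 2) (Fin 2) K) (l : K)
    (hl : l ^ 2 - (B 0 0 + B 1 1) * l + B.det = 0) : ∃ v : Fin 2 → K, v ≠ 0 ∧ B *ᵥ v = l • v := by
  have h1 : (B - l • (1 : Matrix (Fin 2) (Fin 2) K)).det = 0 := by
    rw [Matrix.det_fin_two] at hl ⊢
    simp [Matrix.sub_apply, Matrix.smul_apply, Matrix.one_apply]
    linear_combination hl
  obtain ⟨v, hv, h⟩ := Matrix.exists_mulVec_eq_zero_iff.mpr h1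
  refine ⟨v, hv, ?_⟩
  rw [Matrix.sub_mulVec, Matrix.smul_mulVec, Matrix.one_mulVec, sub_eq_zero] at h
  exact h

/-- Every element of `𝔽_p` is a square in `𝔽_{p²}`. -/
theorem isSquare_in_galois (hp : p ≠ 2) (δ : ZMod p) (hδ : δ ≠ 0) :
    ∃ w : GaloisField p 2, w ^ 2 = algebraMap (ZMod p) (GaloisField p 2) δ := by
  classical
  have hδ' : algebraMap (ZMod p) (GaloisField p 2) δ ≠ 0 := by
    simpa using hδ
  letI := Fintype.ofFinite (GaloisField p 2)
  have hcard : Fintype.card (GaloisField p 2) = p ^ 2 := by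
    rw [← Nat.card_eq_fintype_card]; exact GaloisField.card p 2 (by norm_num)
  have hchar : ringChar (GaloisField p 2) ≠ 2 := by
    rw [ringChar.eq (GaloisField p 2) p]; exact hp
  have h1 := (FiniteField.isSquare_iff hchar hδ').mpr ?_
  · obtain ⟨w, hw⟩ := h1
    exact ⟨w, by rw [sq, ← hw]⟩
  · rw [hcard]
    have hodd : Odd p := (Fact.out : p.Prime).odd_of_ne_two hp
    obtain ⟨k, hk⟩ := hodd
    have h2 : (p ^ 2) / 2 = (p - 1) * (k + 1) := by
      subst hk
      have : (2 * k + 1) ^ 2 = 2 * ((2 * k + 1 - 1) * (k + 1)) + 1 := by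
        have : 2 * k + 1 - 1 = 2 * k := by omega
        rw [this]; ring
      omega
    rw [h2, pow_mul, ← map_pow, ZMod.pow_card_sub_one_eq_one hδ, map_one, one_pow]

/-- The coordinates of a vector, as a vector over `𝔽_{p²}`. -/
noncomputable def kap (v : V) : Fin 2 → GaloisField p 2 :=
  fun i => algebraMap (ZMod p) (GaloisField p 2) (b.repr v i)

/-- The representation on the plane over `𝔽_{p²}`. -/
noncomputable def endHom : (V ≃ₗ[ZMod p] V) →* Module.End (GaloisField p 2) (Fin 2 → GaloisField p 2) :=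
  (MonoidHomClass.toMonoidHom (Matrix.toLinAlgEquiv' (R := GaloisField p 2) (n := Fin 2))).comp
    (((algebraMap (ZMod p) (GaloisField p 2)).mapMatrix (m := Fin 2)).toMonoidHom.comp (matHom b))

theorem endHom_apply (y : V ≃ₗ[ZMod p] V) (w : Fin 2 → GaloisField p 2) :
    endHom b y w = ((matHom b y).map (algebraMap (ZMod p) (GaloisField p 2))) *ᵥ w := rfl

theorem endHom_kap (y : V ≃ₗ[ZMod p] V) (v : V) : endHom b y (kap b v) = kap b (y v) := by
  ext i
  rw [endHom_apply]
  have h := RingHom.map_mulVec (algebraMap (ZMod p) (GaloisField p 2)) (matHom b y) (b.repr v) i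
  change _ = algebraMap (ZMod p) (GaloisField p 2) (b.repr (y v) i)
  rw [← matHom_mulVec, h]
  rfl

/-- The action on the projective line over `𝔽_{p²}`. -/
noncomputable def permHom : (V ≃ₗ[ZMod p] V) →* Equiv.Perm (ℙ (GaloisField p 2) (Fin 2 → GaloisField p 2)) :=
  (MulAction.toPermHom (Module.End (GaloisField p 2) (Fin 2 → GaloisField p 2))ˣ _).comp
    (endHom b).toHomUnits

theorem endHom_ne_zero (y : V ≃ₗ[ZMod p] V) (w : Fin 2 → GaloisField p 2) (hw : w ≠ 0) :
    endHom b y w ≠ 0 := by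
  intro h
  apply hw
  have h1 : endHom b y⁻¹ (endHom b y w) = w := by
    rw [← Module.End.mul_apply, ← map_mul, inv_mul_cancel, map_one, Module.End.one_apply]
  rw [← h1, h, map_zero]

theorem permHom_mk (y : V ≃ₗ[ZMod p] V) (w : Fin 2 → GaloisField p 2) (hw : w ≠ 0) :
    permHom b y (mk (GaloisField p 2) w hw) =
      mk (GaloisField p 2) (endHom b y w) (endHom_ne_zero b y w hw) := rfl

theorem permHom_scalar (y : V ≃ₗ[ZMod p] V) (hy : IsScalar y) : permHom b y = 1 := by
  obtain ⟨c, hc⟩ := hy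
  have hm := matHom_scalar b y c hc
  ext1 L
  induction L using Projectivization.ind with
  | h w hw =>
  rw [permHom_mk, Equiv.Perm.one_apply, mk_eq_mk_iff' _ _ _ (endHom_ne_zero b y w hw) hw]
  refine ⟨algebraMap (ZMod p) (GaloisField p 2) c, ?_⟩
  rw [endHom_apply, hm]
  have h1 : (c • (1 : Matrix (Fin 2) (Fin 2) (ZMod p))).map (algebraMap (ZMod p) (GaloisField p 2)) =
      (algebraMap (ZMod p) (GaloisField p 2) c) • (1 : Matrix (Fin 2) (Fin 2) (GaloisField p 2)) := by
    ext i j
    rw [Matrix.map_apply, Matrix.smul_apply, Matrix.smul_apply, Matrix.one_apply, Matrix.one_apply]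
    split_ifs <;> simp
  rw [h1, Matrix.smul_mulVec, Matrix.one_mulVec]

theorem finite_card_fixed (hp : p ≠ 2) (W : Subgroup (V ≃ₗ[ZMod p] V))
    (hW : ∀ y ∈ W, y ^ p = 1 → y = 1) (y : V ≃ₗ[ZMod p] V) (hy : y ∈ W) (hs : ¬ IsScalar y) :
    Nat.card (Function.fixedPoints (permHom b y)) = 2 := by
  classical
  have hδ : (matHom b y 0 0 + matHom b y 1 1) ^ 2 - 4 * (matHom b y).det ≠ 0 :=
    fun h => hs (disc_ne_zero b hp W hW y hy h)
  obtain ⟨w, hw⟩ := isSquare_in_galois hp _ hδ
  set ι := algebraMap (ZMod p) (GaloisField p 2) with hι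
  set B := (matHom b y).map ι with hB
  have h2 : (2 : GaloisField p 2) ≠ 0 := by
    intro h
    have h3 : ((2 : ℕ) : GaloisField p 2) = 0 := by exact_mod_cast h
    rw [CharP.cast_eq_zero_iff (GaloisField p 2) p] at h3
    exact hp ((Nat.prime_dvd_prime_iff_eq Fact.out Nat.prime_two).mp h3)
  have hw0 : w ≠ 0 := by
    intro h0
    have : ι ((matHom b y 0 0 + matHom b y 1 1) ^ 2 - 4 * (matHom b y).det) = 0 := by
      rw [← hw, h0]; ring
    rw [map_eq_zero] at this
    exact hδ this
  have hBdet : B.det = ι (matHom b y).det := by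
    rw [Matrix.det_fin_two, Matrix.det_fin_two]
    simp [hB, map_sub, map_mul]
  have hB00 : B 0 0 = ι (matHom b y 0 0) := rfl
  have hB11 : B 1 1 = ι (matHom b y 1 1) := rfl
  have hw2 : w ^ 2 = (B 0 0 + B 1 1) ^ 2 - 4 * B.det := by
    rw [hw, hBdet, hB00, hB11]
    simp only [map_sub, map_mul, map_pow, map_add, map_ofNat]
  have hroot : ∀ l : GaloisField p 2, (2 * l = (B 0 0 + B 1 1) + w ∨ 2 * l = (B 0 0 + B 1 1) - w) →
      l ^ 2 - (B 0 0 + B 1 1) * l + B.det = 0 := by
    intro l hl
    have h4 : (4 : GaloisField p 2) ≠ 0 := by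
      have : (4 : GaloisField p 2) = 2 * 2 := by norm_num
      rw [this]; exact mul_ne_zero h2 h2
    apply mul_left_cancel₀ h4
    rw [mul_zero]
    have h5 : 4 * (l ^ 2 - (B 0 0 + B 1 1) * l + B.det) =
        (2 * l) ^ 2 - 2 * (B 0 0 + B 1 1) * (2 * l) + 4 * B.det := by ring
    rw [h5]
    rcases hl with hl | hl <;> rw [hl] <;> linear_combination hw2
  have hl1 : 2 * (((B 0 0 + B 1 1) + w) / 2) = (B 0 0 + B 1 1) + w := by field_simp
  have hl2 : 2 * (((B 0 0 + B 1 1) - w) / 2) = (B 0 0 + B 1 1) - w := by field_simp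
  obtain ⟨v₁, hv₁0, hv₁⟩ := exists_eigenvector B _ (hroot _ (Or.inl hl1))
  obtain ⟨v₂, hv₂0, hv₂⟩ := exists_eigenvector B _ (hroot _ (Or.inr hl2))
  refine card_fixed_two (endHom b y) (permHom b y) (endHom_ne_zero b y)
    (fun w hw => permHom_mk b y w hw) _ _ ?_ v₁ v₂ hv₁0 hv₂0 hv₁ hv₂
  intro h
  have h5 : (B 0 0 + B 1 1) + w = (B 0 0 + B 1 1) - w := by
    rw [← hl1, ← hl2, h]
  have h6 : 2 * w = 0 := by linear_combination h5
  exact (mul_ne_zero h2 hw0) h6

/-- The main count. -/
theorem pgl_bound (hp : p ≠ 2) (hV : Module.finrank (ZMod p) V = 2) (W : Subgroup (V ≃ₗ[ZMod p] V))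
    (hW : ∀ y ∈ W, y ^ p = 1 → y = 1) (S : Set V) (h0 : ∀ v ∈ S, v ≠ 0)
    (hS : ∀ u ∈ S, ∀ v ∈ S, ∀ c : ZMod p, u = c • v → u = v) :
    ((∀ v ∈ S, ∃ y ∈ W, ∃ c : ZMod p, y v = c • v ∧ ∀ k : ℕ, 0 < k → k < 4 → ¬ IsScalar (y ^ k)) →
        S.ncard ≤ 12) ∧
    ((∀ v ∈ S, ∃ y ∈ W, ∃ c : ZMod p, y v = c • v ∧ ∀ k : ℕ, 0 < k → k < 6 → ¬ IsScalar (y ^ k)) →
        S.ncard ≤ 2) := by
  classical
  haveI : Module.Finite (ZMod p) V := Module.finite_of_finrank_pos (by omega)
  let b : Module.Basis (Fin 2) (ZMod p) V := Module.finBasisOfFinrankEq (ZMod p) V hV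
  set ι := algebraMap (ZMod p) (GaloisField p 2) with hι
  let X := ℙ (GaloisField p 2) (Fin 2 → GaloisField p 2)
  haveI : Finite X := inferInstance
  have hbounds := TwoFix.stabilizer_bounds (W.map (permHom b)) (by
    rintro σ ⟨y, hy, rfl⟩ hσ
    exact finite_card_fixed b hp W hW y hy (fun h => hσ (permHom_scalar b y h)))
  have hcardX : 3 ≤ Nat.card X := by
    have h1 : Nat.card X = Nat.card (GaloisField p 2) + 1 :=
      Projectivization.card_of_finrank_two (GaloisField p 2) (Fin 2 → GaloisField p 2) (by simp)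
    rw [h1, GaloisField.card p 2 (by norm_num)]
    have := (Fact.out : p.Prime).two_le
    nlinarith
  have hnontriv : ∀ y ∈ W, ¬ IsScalar y → permHom b y ≠ 1 := by
    intro y hy hs h1
    have h2 := finite_card_fixed b hp W hW y hy hs
    rw [h1] at h2
    have h3 : Nat.card (Function.fixedPoints (1 : Equiv.Perm X)) = Nat.card X := by
      apply Nat.card_congr
      exact Equiv.subtypeUnivEquiv (fun x => rfl)
    have h4 : Nat.card (Function.fixedPoints (1 : Equiv.Perm X)) = 2 := h2
    omega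
  have hk0 : ∀ v : V, v ≠ 0 → kap b v ≠ 0 := by
    intro v hv h
    apply hv
    apply b.repr.injective
    rw [map_zero]
    ext i
    have := congrFun h i
    simpa [kap] using this
  let f : V → X := fun v => if h : kap b v ≠ 0 then mk _ (kap b v) h else
    mk _ (fun _ => 1) (fun h => one_ne_zero (congrFun h 0))
  have hf : ∀ v (hv : v ≠ 0), f v = mk _ (kap b v) (hk0 v hv) := by
    intro v hv
    exact dif_pos (hk0 v hv)
  have hinj : Set.InjOn f S := by
    intro u hu v hv huv
    rw [hf u (h0 u hu), hf v (h0 v hv), mk_eq_mk_iff' _ _ _ (hk0 u (h0 u hu)) (hk0 v (h0 v hv))] at huv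
    obtain ⟨c, hc⟩ := huv
    have hv0 : b.repr v ≠ 0 := by
      intro h; apply h0 v hv; apply b.repr.injective; rw [h, map_zero]
    obtain ⟨i, hi⟩ := DFunLike.ne_iff.mp hv0
    have hci : c = ι (b.repr u i / b.repr v i) := by
      have h1 := congrFun hc i
      have h2 : c * ι (b.repr v i) = ι (b.repr u i) := h1
      have hne : ι (b.repr v i) ≠ 0 := by simpa using hi
      rw [map_div₀, eq_div_iff hne, h2]
    refine hS u hu v hv (b.repr u i / b.repr v i) ?_
    apply b.repr.injective
    ext j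
    have h1 := congrFun hc j
    have h2 : c * ι (b.repr v j) = ι (b.repr u j) := h1
    rw [hci, ← map_mul] at h2
    have h3 := ι.injective h2
    rw [← h3]
    simp
  have hfix : ∀ s : ℕ, (∀ v ∈ S, ∃ y ∈ W, ∃ c : ZMod p, y v = c • v ∧
      ∀ k : ℕ, 0 < k → k < s → ¬ IsScalar (y ^ k)) →
      ∀ v ∈ S, s ≤ Nat.card (MulAction.stabilizer (W.map (permHom b)) (f v)) := by
    intro s hs v hv
    obtain ⟨y, hy, c, hyv, hk⟩ := hs v hv
    have hv0 := h0 v hv
    set σ : W.map (permHom b) := ⟨permHom b y, Subgroup.mem_map_of_mem _ hy⟩ with hσ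
    have hσfix : σ ∈ MulAction.stabilizer (W.map (permHom b)) (f v) := by
      rw [MulAction.mem_stabilizer_iff, hf v hv0]
      change permHom b y _ = _
      rw [permHom_mk, mk_eq_mk_iff' _ _ _ (endHom_ne_zero b y _ (hk0 v hv0)) (hk0 v hv0)]
      refine ⟨ι c, ?_⟩
      rw [endHom_kap, hyv]
      ext i
      simp [kap, Algebra.smul_def, hι]
    have hord : s ≤ orderOf σ := by
      by_contra hlt
      push Not at hlt
      have hpos : 0 < orderOf σ := orderOf_pos σ
      apply hnontriv (y ^ orderOf σ) (W.pow_mem hy _) (hk _ hpos hlt)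
      rw [map_pow]
      have h2 : ((σ ^ orderOf σ : W.map (permHom b)) : Equiv.Perm X) = 1 := by
        rw [pow_orderOf_eq_one]; rfl
      exact h2
    refine hord.trans ?_
    rw [← Nat.card_zpowers]
    apply Subgroup.card_le_of_le
    rw [Subgroup.zpowers_le]
    exact hσfix
  constructor
  · intro h
    calc S.ncard ≤ Set.ncard {x : X | 4 ≤ Nat.card (MulAction.stabilizer (W.map (permHom b)) x)} :=
          Set.ncard_le_ncard_of_injOn f (fun v hv => hfix 4 h v hv) hinj (Set.toFinite _)
      _ ≤ 12 := hbounds.1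
  · intro h
    calc S.ncard ≤ Set.ncard {x : X | 6 ≤ Nat.card (MulAction.stabilizer (W.map (permHom b)) x)} :=
          Set.ncard_le_ncard_of_injOn f (fun v hv => hfix 6 h v hv) hinj (Set.toFinite _)
      _ ≤ 2 := hbounds.2

end main

end Cfsg.Agent.Lib.FrobRep.PGLBound
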