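import Mathlib

/-!
# Permutation groups in which every nonidentity element has exactly two fixed points

Klein's orbit count: at most 2 points have stabilizer of order at least 6 and at most 12 points have
stabilizer of order at least 4.
-/

set_option autoImplicit false

namespace Cfsg.Agent.Lib.FrobRep.TwoFix

theorem three_aux {N c₁ c₂ c₃ s₁ s₂ s₃ : ℕ} (h₁ : N = s₁ * c₁) (h₂ : N = s₂ * c₂) (h₃ : N = s₃ * c₃)
    (hc₁ : 1 ≤ c₁) (hc₂ : 1 ≤ c₂) (hc₃ : 1 ≤ c₃) (h2₁ : 2 * c₁ ≤ N) (h2₂ : 2 * c₂ ≤ N)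
    (hsum : c₁ + c₂ + c₃ = N + 2) (h4 : 4 * c₃ ≤ N) (hle : c₂ ≤ c₁) :
    (c₃ = 2 ∨ (c₃ = 6 ∧ N = 24) ∨ (c₃ = 12 ∧ N = 60)) ∧ N < 4 * c₁ ∧ N < 4 * c₂ := by
  have hs₁ : s₁ = 2 := by
    have hge : 2 ≤ s₁ := by
      by_contra h
      have : s₁ ≤ 1 := by omega
      have : s₁ * c₁ ≤ 1 * c₁ := Nat.mul_le_mul_right c₁ this
      omega
    have hle' : s₁ ≤ 2 := by
      by_contra h
      have : 3 ≤ s₁ := by omega
      have : 3 * c₁ ≤ s₁ * c₁ := Nat.mul_le_mul_right c₁ this
      omega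
    omega
  subst hs₁
  have hs₂ : s₂ = 2 ∨ s₂ = 3 := by
    have hge : 2 ≤ s₂ := by
      by_contra h
      have : s₂ ≤ 1 := by omega
      have : s₂ * c₂ ≤ 1 * c₂ := Nat.mul_le_mul_right c₂ this
      omega
    have hle' : s₂ ≤ 3 := by
      by_contra h
      have : 4 ≤ s₂ := by omega
      have : 4 * c₂ ≤ s₂ * c₂ := Nat.mul_le_mul_right c₂ this
      omega
    omega
  rcases hs₂ with rfl | rfl
  · refine ⟨Or.inl (by omega), by omega, by omega⟩
  · have h6 : 6 * c₃ = N + 12 := by omega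
    have hs₃ : s₃ = 4 ∨ s₃ = 5 := by
      have hge : 4 ≤ s₃ := by
        by_contra h
        have : s₃ ≤ 3 := by omega
        have : s₃ * c₃ ≤ 3 * c₃ := Nat.mul_le_mul_right c₃ this
        omega
      have hle' : s₃ ≤ 5 := by
        by_contra h
        have : 6 ≤ s₃ := by omega
        have : 6 * c₃ ≤ s₃ * c₃ := Nat.mul_le_mul_right c₃ this
        omega
      omega
    rcases hs₃ with rfl | rfl
    · exact ⟨Or.inr (Or.inl (by omega)), by omega, by omega⟩
    · exact ⟨Or.inr (Or.inr (by omega)), by omega, by omega⟩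

theorem three {N c₁ c₂ c₃ : ℕ} (h₁ : c₁ ∣ N) (h₂ : c₂ ∣ N) (h₃ : c₃ ∣ N)
    (hc₁ : 1 ≤ c₁) (hc₂ : 1 ≤ c₂) (hc₃ : 1 ≤ c₃) (h2₁ : 2 * c₁ ≤ N) (h2₂ : 2 * c₂ ≤ N)
    (hsum : c₁ + c₂ + c₃ = N + 2) (h4 : 4 * c₃ ≤ N) :
    (c₃ = 2 ∨ (c₃ = 6 ∧ N = 24) ∨ (c₃ = 12 ∧ N = 60)) ∧ N < 4 * c₁ ∧ N < 4 * c₂ := by
  obtain ⟨s₁, hs₁⟩ := h₁
  obtain ⟨s₂, hs₂⟩ := h₂
  obtain ⟨s₃, hs₃⟩ := h₃
  rcases le_total c₂ c₁ with hle | hle
  · exact three_aux (by rw [hs₁, mul_comm]) (by rw [hs₂, mul_comm]) (by rw [hs₃, mul_comm])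
      hc₁ hc₂ hc₃ h2₁ h2₂ hsum h4 hle
  · have := three_aux (N := N) (c₁ := c₂) (c₂ := c₁) (c₃ := c₃) (by rw [hs₂, mul_comm])
      (by rw [hs₁, mul_comm]) (by rw [hs₃, mul_comm]) hc₂ hc₁ hc₃ h2₂ h2₁ (by omega) h4 hle
    exact ⟨this.1, this.2.2, this.2.1⟩

theorem ite3 (P : ℕ → Prop) [DecidablePred P] (x y z b : ℕ) (hx : P x → x ≤ b ∧ ¬ P y ∧ ¬ P z)
    (hy : P y → y ≤ b ∧ ¬ P x ∧ ¬ P z) (hz : P z → z ≤ b ∧ ¬ P x ∧ ¬ P y) :
    (if P x then x else 0) + (if P y then y else 0) + (if P z then z else 0) ≤ b := by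
  by_cases px : P x
  · obtain ⟨h, h1, h2⟩ := hx px
    simp [px, h1, h2, h]
  · by_cases py : P y
    · obtain ⟨h, h1, h2⟩ := hy py
      simp [py, h1, h2, h]
    · by_cases pz : P z
      · obtain ⟨h, h1, h2⟩ := hz pz
        simp [pz, h1, h2, h]
      · simp [px, py, pz]

open Finset in
/-- The arithmetic of the orbit count. -/
theorem numeric {Ω : Type*} [Fintype Ω] [DecidableEq Ω] (c : Ω → ℕ) (N : ℕ) (hpos : ∀ ω, 1 ≤ c ω)
    (hdvd : ∀ ω, c ω ∣ N) (hN : 1 ≤ N) (hsum : ∑ ω, (N - c ω) + 2 = 2 * N) :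
    (∑ ω ∈ univ.filter (fun ω => 4 * c ω ≤ N), c ω ≤ 12) ∧
      (∑ ω ∈ univ.filter (fun ω => 6 * c ω ≤ N), c ω ≤ 2) := by
  set B := univ.filter (fun ω => c ω < N) with hB
  have hle : ∀ ω, c ω ≤ N := fun ω => Nat.le_of_dvd hN (hdvd ω)
  have h2c : ∀ ω, c ω < N → 2 * c ω ≤ N := by
    intro ω hω
    obtain ⟨k, hk⟩ := hdvd ω
    have hk2 : 2 ≤ k := by
      by_contra h
      have hk1 : k ≤ 1 := by omega
      have : c ω * k ≤ c ω * 1 := Nat.mul_le_mul_left _ hk1
      omega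
    calc 2 * c ω ≤ k * c ω := Nat.mul_le_mul_right _ hk2
      _ = N := by rw [hk, mul_comm]
  have hsumB : ∑ ω ∈ B, (N - c ω) + 2 = 2 * N := by
    rw [← hsum]
    congr 1
    apply Finset.sum_subset (Finset.filter_subset _ _)
    intro ω _ hω
    have : ¬ c ω < N := by simpa [hB] using hω
    have := hle ω
    omega
  have hcard : B.card * N ≤ 2 * ∑ ω ∈ B, (N - c ω) := by
    rw [Finset.mul_sum, Finset.card_eq_sum_ones, Finset.sum_mul]
    apply Finset.sum_le_sum
    intro ω hω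
    have h1 : c ω < N := (Finset.mem_filter.mp hω).2
    have := h2c ω h1
    omega
  have hB3 : B.card ≤ 3 := by
    by_contra h
    have h4 : 4 ≤ B.card := by omega
    have : 4 * N ≤ B.card * N := Nat.mul_le_mul_right _ h4
    omega
  have hT : ∀ s : ℕ, 2 ≤ s → univ.filter (fun ω => s * c ω ≤ N) ⊆ B := by
    intro s hs ω hω
    have h1 : s * c ω ≤ N := (Finset.mem_filter.mp hω).2
    have h2 : 2 * c ω ≤ s * c ω := Nat.mul_le_mul_right _ hs
    have := hpos ω
    exact Finset.mem_filter.mpr ⟨Finset.mem_univ _, by omega⟩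
  have hmemB : ∀ ω ∈ B, c ω < N := fun ω hω => (Finset.mem_filter.mp hω).2
  have hfil : ∀ s : ℕ, 2 ≤ s → univ.filter (fun ω => s * c ω ≤ N) = B.filter (fun ω => s * c ω ≤ N) := by
    intro s hs
    ext ω
    constructor
    · intro h
      exact Finset.mem_filter.mpr ⟨hT s hs h, (Finset.mem_filter.mp h).2⟩
    · intro h
      exact Finset.mem_filter.mpr ⟨Finset.mem_univ _, (Finset.mem_filter.mp h).2⟩
  rw [hfil 4 (by norm_num), hfil 6 (by norm_num)]
  have hcases : B.card = 0 ∨ B.card = 1 ∨ B.card = 2 ∨ B.card = 3 := by omega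
  rcases hcases with h0 | h1 | h2 | h3
  · rw [Finset.card_eq_zero] at h0
    simp [h0]
  · exfalso
    obtain ⟨a, ha⟩ := Finset.card_eq_one.mp h1
    rw [ha, Finset.sum_singleton] at hsumB
    have h3 : c a < N := hmemB a (by rw [ha]; exact Finset.mem_singleton_self a)
    have := hpos a
    omega
  · obtain ⟨a, b, hab, hBeq⟩ := Finset.card_eq_two.mp h2
    have hsub : ∀ s : ℕ, ∑ ω ∈ B.filter (fun ω => s * c ω ≤ N), c ω ≤ ∑ ω ∈ B, c ω := fun s =>
      Finset.sum_le_sum_of_subset (Finset.filter_subset _ _)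
    have hB2 : ∑ ω ∈ B, c ω = 2 := by
      rw [hBeq, Finset.sum_pair hab] at hsumB ⊢
      have h3 : c a < N := hmemB a (by rw [hBeq]; simp)
      have h4 : c b < N := hmemB b (by rw [hBeq]; simp)
      omega
    have h4 := hsub 4
    have h6 := hsub 6
    rw [hB2] at h4 h6
    omega
  · obtain ⟨a, b, d, hab, had, hbd, hBeq⟩ := Finset.card_eq_three.mp h3
    have ha : c a < N := hmemB a (by rw [hBeq]; simp)
    have hb : c b < N := hmemB b (by rw [hBeq]; simp)
    have hd : c d < N := hmemB d (by rw [hBeq]; simp)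
    have hs3 : c a + c b + c d = N + 2 := by
      rw [hBeq, Finset.sum_insert (by simp [hab, had]), Finset.sum_pair hbd] at hsumB
      omega
    have T1 := fun h4 => three (hdvd a) (hdvd b) (hdvd d) (hpos a) (hpos b) (hpos d) (h2c a ha)
      (h2c b hb) hs3 h4
    have T2 := fun h4 => three (hdvd a) (hdvd d) (hdvd b) (hpos a) (hpos d) (hpos b) (h2c a ha)
      (h2c d hd) (by omega : c a + c d + c b = N + 2) h4
    have T3 := fun h4 => three (hdvd b) (hdvd d) (hdvd a) (hpos b) (hpos d) (hpos a) (h2c b hb)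
      (h2c d hd) (by omega : c b + c d + c a = N + 2) h4
    have hsumfil : ∀ s : ℕ, ∑ ω ∈ B.filter (fun ω => s * c ω ≤ N), c ω =
        (if s * c a ≤ N then c a else 0) + (if s * c b ≤ N then c b else 0) +
          (if s * c d ≤ N then c d else 0) := by
      intro s
      rw [Finset.sum_filter, hBeq, Finset.sum_insert (by simp [hab, had]), Finset.sum_pair hbd,
        add_assoc]
    rw [hsumfil 4, hsumfil 6]
    constructor
    · refine ite3 (fun v => 4 * v ≤ N) (c a) (c b) (c d) 12 ?_ ?_ ?_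
      · intro h
        obtain ⟨h1, h2, h3⟩ := T3 h
        exact ⟨by omega, by omega, by omega⟩
      · intro h
        obtain ⟨h1, h2, h3⟩ := T2 h
        exact ⟨by omega, by omega, by omega⟩
      · intro h
        obtain ⟨h1, h2, h3⟩ := T1 h
        exact ⟨by omega, by omega, by omega⟩
    · refine ite3 (fun v => 6 * v ≤ N) (c a) (c b) (c d) 2 ?_ ?_ ?_
      · intro h
        obtain ⟨h1, h2, h3⟩ := T3 (by omega)
        exact ⟨by omega, by omega, by omega⟩
      · intro h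
        obtain ⟨h1, h2, h3⟩ := T2 (by omega)
        exact ⟨by omega, by omega, by omega⟩
      · intro h
        obtain ⟨h1, h2, h3⟩ := T1 (by omega)
        exact ⟨by omega, by omega, by omega⟩

open MulAction in
/-- Klein's count. -/
theorem stabilizer_bounds {X : Type*} [Finite X] (H : Subgroup (Equiv.Perm X))
    (h2 : ∀ σ ∈ H, σ ≠ 1 → Nat.card (Function.fixedPoints σ) = 2) :
    Set.ncard {x : X | 4 ≤ Nat.card (stabilizer H x)} ≤ 12 ∧
      Set.ncard {x : X | 6 ≤ Nat.card (stabilizer H x)} ≤ 2 := by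
  classical
  haveI := Fintype.ofFinite X
  haveI : Fintype H := Fintype.ofFinite H
  let Ω := orbitRel.Quotient H X
  haveI : Fintype Ω := Fintype.ofFinite Ω
  let N := Nat.card H
  have hN : 1 ≤ N := Nat.card_pos
  let c : Ω → ℕ := fun ω => Nat.card (orbitRel.Quotient.orbit ω)
  -- orbit stabilizer
  have hOS : ∀ x : X, Nat.card (orbit H x) * Nat.card (stabilizer H x) = N := by
    intro x
    rw [← Nat.card_prod]
    exact Nat.card_congr (orbitProdStabilizerEquivGroup H x)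
  let f : X → Ω := fun x => Quotient.mk'' x
  have hcf : ∀ x : X, c (f x) = Nat.card (orbit H x) := by
    intro x
    change Nat.card (orbitRel.Quotient.orbit (Quotient.mk'' x : Ω)) = _
    rw [orbitRel.Quotient.orbit_mk]
  have hf : Function.Surjective f := Quotient.mk''_surjective
  have hpos : ∀ ω, 1 ≤ c ω := by
    intro ω
    obtain ⟨x, rfl⟩ := hf ω
    rw [hcf]
    haveI : Nonempty (orbit H x) := ⟨⟨x, mem_orbit_self x⟩⟩
    exact Nat.card_pos
  have hdvd : ∀ ω, c ω ∣ N := by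
    intro ω
    obtain ⟨x, rfl⟩ := hf ω
    rw [hcf]
    exact ⟨_, (hOS x).symm⟩
  have hle : ∀ ω, c ω ≤ N := fun ω => Nat.le_of_dvd hN (hdvd ω)
  have hX : ∑ ω, c ω = Nat.card X := by
    rw [Nat.card_congr (selfEquivSigmaOrbits' H X), Nat.card_sigma]
  -- Burnside
  have hB : ∑ g : H, Fintype.card (fixedBy X g) = Fintype.card Ω * Fintype.card H :=
    sum_card_fixedBy_eq_card_orbits_mul_card_group H X
  have hfix1 : Fintype.card (fixedBy X (1 : H)) = Nat.card X := by
    rw [← Nat.card_eq_fintype_card]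
    rw [fixedBy_one_eq_univ]
    simp
  have hfix2 : ∀ g : H, g ≠ 1 → Fintype.card (fixedBy X g) = 2 := by
    intro g hg
    rw [← Nat.card_eq_fintype_card]
    have h3 := h2 g g.2 (fun h => hg (Subtype.ext h))
    exact h3
  have hB2 : Nat.card X + (N - 1) * 2 = Fintype.card Ω * N := by
    have h3 := Finset.add_sum_erase Finset.univ (fun g : H => Fintype.card (fixedBy X g))
      (Finset.mem_univ (1 : H))
    have h4 : ∑ g ∈ Finset.univ.erase (1 : H), Fintype.card (fixedBy X g) = (N - 1) * 2 := by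
      rw [Finset.sum_congr rfl (fun g hg => hfix2 g (Finset.ne_of_mem_erase hg)), Finset.sum_const,
        Finset.card_erase_of_mem (Finset.mem_univ _), Finset.card_univ, smul_eq_mul]
      change _ = (Nat.card H - 1) * 2
      rw [Nat.card_eq_fintype_card]
    rw [h4, hfix1, hB, ← Nat.card_eq_fintype_card (α := H)] at h3
    exact h3
  have hsum : ∑ ω, (N - c ω) + 2 = 2 * N := by
    have h3 : ∑ ω, (N - c ω) + ∑ ω, c ω = Fintype.card Ω * N := by
      rw [← Finset.sum_add_distrib, Finset.sum_congr rfl (fun ω _ => tsub_add_cancel_of_le (hle ω)),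
        Finset.sum_const, Finset.card_univ, smul_eq_mul]
    rw [hX] at h3
    omega
  obtain ⟨hn4, hn6⟩ := numeric c N hpos hdvd hN hsum
  have hcount : ∀ s : ℕ, Set.ncard {x : X | s ≤ Nat.card (stabilizer H x)} ≤
      ∑ ω ∈ Finset.univ.filter (fun ω => s * c ω ≤ N), c ω := by
    intro s
    have hset : {x : X | s ≤ Nat.card (stabilizer H x)} =
        ((Finset.univ.filter (fun x : X => s ≤ Nat.card (stabilizer H x)) : Finset X) : Set X) := by
      ext x; simp
    rw [hset, Set.ncard_coe_finset]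
    have hmaps : ∀ x ∈ Finset.univ.filter (fun x : X => s ≤ Nat.card (stabilizer H x)),
        f x ∈ Finset.univ.filter (fun ω => s * c ω ≤ N) := by
      intro x hx
      have h3 : s ≤ Nat.card (stabilizer H x) := (Finset.mem_filter.mp hx).2
      refine Finset.mem_filter.mpr ⟨Finset.mem_univ _, ?_⟩
      rw [hcf, mul_comm, ← hOS x]
      exact Nat.mul_le_mul_left _ h3
    rw [Finset.card_eq_sum_card_fiberwise hmaps]
    apply Finset.sum_le_sum
    intro ω _
    have h3 : ((Finset.univ.filter (fun x : X => s ≤ Nat.card (stabilizer H x))).filter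
        (fun x => f x = ω) : Finset X) ⊆ (orbitRel.Quotient.orbit ω).toFinset := by
      intro x hx
      have h4 : f x = ω := (Finset.mem_filter.mp hx).2
      rw [Set.mem_toFinset, orbitRel.Quotient.mem_orbit]
      exact h4
    refine (Finset.card_le_card h3).trans (le_of_eq ?_)
    rw [← Set.ncard_eq_toFinset_card']
    rfl
  exact ⟨(hcount 4).trans hn4, (hcount 6).trans hn6⟩

end Cfsg.Agent.Lib.FrobRep.TwoFix
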