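import Mathlib
import Cfsg.Agent.Lib.FrobRep.TwoRank

/-!
# The number of generators of 2-subgroups of linear groups over the field with three elements
-/

set_option autoImplicit false
set_option linter.style.haveILetI false

open Polynomial
open scoped commutatorElement

universe u v w

namespace Cfsg.Agent.Lib.FrobRep.TwoRank

open Cfsg.Agent.Lib.FrobRep Cfsg.Agent.Lib.FrobRep.PLinear

/-- The bound over the field with three elements. -/
def hBound (n : ℕ) : ℕ := if n ≤ 1 then n else 3 * n / 2 - 1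

/-- The bound statement over the field with three elements. -/
def B2 (n : ℕ) : Prop :=
  ∀ (F : Type u) [Field F], Nat.card F = 3 → ∀ (V : Type v) [AddCommGroup V] [Module F V]
    [FiniteDimensional F V] (Q : Type w) [Group Q] [Finite Q], IsPGroup 2 Q →
    ∀ ρ : Q →* Module.End F V, Module.finrank F V = n → GenMod ρ.ker (hBound n)

theorem two_ne_zero_of_card_three {F : Type u} [Field F] (hF : Nat.card F = 3) :
    ((2 : ℕ) : F) ≠ 0 := by
  intro h
  haveI : Finite F := Nat.finite_of_card_ne_zero (by omega)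
  haveI := Fintype.ofFinite F
  have h1 : Fintype.card F = 3 := by rwa [← Nat.card_eq_fintype_card]
  obtain ⟨m, hm, hq⟩ := FiniteField.card F (ringChar F)
  have h2 : ringChar F ∣ 2 := (CharP.cast_eq_zero_iff F (ringChar F) 2).1 h
  have h3 : ringChar F = 2 := by
    rcases (Nat.dvd_prime Nat.prime_two).1 h2 with h3 | h3
    · exact absurd h3 hm.ne_one
    · exact h3
  rw [h1, h3] at hq
  have h4 : 2 ∣ 3 := by
    rw [hq]
    exact dvd_pow_self 2 m.ne_zero
  omega

theorem sq_eq_one_of_card_three {F : Type u} [Field F] (hF : Nat.card F = 3) (a : F) (ha : a ≠ 0) :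
    a = 1 ∨ a = -1 := by
  haveI : Finite F := Nat.finite_of_card_ne_zero (by omega)
  haveI := Fintype.ofFinite F
  have h1 : Fintype.card F = 3 := by rwa [← Nat.card_eq_fintype_card]
  have h2 : a ^ (Fintype.card F - 1) = 1 := FiniteField.pow_card_sub_one_eq_one a ha
  rw [h1] at h2
  have h3 : (a - 1) * (a + 1) = 0 := by
    have : (a - 1) * (a + 1) = a ^ 2 - 1 := by ring
    have h5 : a ^ 2 = 1 := h2
    rw [this, h5, sub_self]
  rcases mul_eq_zero.1 h3 with h4 | h4
  · exact Or.inl (sub_eq_zero.1 h4)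
  · exact Or.inr (eq_neg_of_add_eq_zero_left h4)

section faithful

variable {F : Type u} [Field F] {V : Type v} [AddCommGroup V] [Module F V] [FiniteDimensional F V]
  {Q : Type w} [Group Q] [Finite Q]

/-- The eigenspaces fill the space, in equal dimensions. -/
theorem eigen_balance [Nontrivial V] {ρ : Q →* Module.End F V} {x g₀ : Q} (hd : SecondData ρ x g₀)
    (hpF : ((2 : ℕ) : F) ≠ 0) (hirr : ∀ U : Submodule F V, (∀ g, ∀ x ∈ U, ρ g x ∈ U) → U = ⊥ ∨ U = ⊤)
    (lam : F) (hlam : lam ≠ 0) (hne : Module.End.eigenspace (ρ x) lam ≠ ⊥) :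
    Module.End.eigenspace (ρ x) lam ⊔ Module.End.eigenspace (ρ x) (-lam) = ⊤ ∧
    Module.finrank F (Module.End.eigenspace (ρ x) (-lam)) =
      Module.finrank F (Module.End.eigenspace (ρ x) lam) ∧
    2 * Module.finrank F (Module.End.eigenspace (ρ x) lam) = Module.finrank F V := by
  classical
  set U := Module.End.eigenspace (ρ x) lam with hU
  set U' := Module.End.eigenspace (ρ x) (-lam) with hU'
  have h1 : ∀ v ∈ U, ρ g₀ v ∈ U' := fun v hv => eigen_neg hd lam v hv
  have h2 : ∀ v ∈ U', ρ g₀ v ∈ U := fun v hv => by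
    have := eigen_neg hd (-lam) v hv
    rwa [neg_neg] at this
  have hle : ∀ (A B : Submodule F V), (∀ v ∈ A, ρ g₀ v ∈ B) →
      Module.finrank F A ≤ Module.finrank F B := by
    intro A B hAB
    let L : A →ₗ[F] B := (ρ g₀).restrict hAB
    apply LinearMap.finrank_le_finrank_of_injective (f := L)
    intro a b hab
    apply Subtype.ext
    apply rho_inj ρ g₀
    exact congrArg Subtype.val hab
  have hfr : Module.finrank F U' = Module.finrank F U :=
    le_antisymm (hle _ _ h2) (hle _ _ h1)
  have hinv : ∀ g, ∀ v ∈ U ⊔ U', ρ g v ∈ U ⊔ U' := by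
    intro g v hv
    obtain ⟨a, ha, b, hb, rfl⟩ := Submodule.mem_sup.1 hv
    rw [map_add]
    rcases hd.hdich g with hg | hg
    · exact Submodule.add_mem _
        (Submodule.mem_sup_left (eigen_centralizer ρ x lam g hg a ha))
        (Submodule.mem_sup_right (eigen_centralizer ρ x (-lam) g hg b hb))
    · have e : ∀ w, ρ g w = ρ g₀ (ρ (g₀⁻¹ * g) w) := by
        intro w
        rw [← Module.End.mul_apply, ← map_mul, mul_inv_cancel_left]
      rw [e a, e b]
      exact Submodule.add_mem _
        (Submodule.mem_sup_right (h1 _ (eigen_centralizer ρ x lam _ hg a ha)))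
        (Submodule.mem_sup_left (h2 _ (eigen_centralizer ρ x (-lam) _ hg b hb)))
  have htop : U ⊔ U' = ⊤ := by
    rcases hirr _ hinv with h | h
    · exfalso
      apply hne
      exact le_bot_iff.1 (h ▸ (le_sup_left : U ≤ U ⊔ U'))
    · exact h
  have hinf : U ⊓ U' = ⊥ := by
    rw [Submodule.eq_bot_iff]
    rintro v ⟨hv1, hv2⟩
    rw [SetLike.mem_coe, hU, Module.End.mem_eigenspace_iff] at hv1
    rw [SetLike.mem_coe, hU', Module.End.mem_eigenspace_iff] at hv2
    rw [hv1] at hv2
    have h3 : (2 * lam) • v = 0 := by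
      have : (2 * lam) • v = lam • v - (-lam) • v := by
        rw [← sub_smul]
        congr 1
        ring
      rw [this, ← hv2, sub_self]
    have h4 : (2 * lam) ≠ 0 := mul_ne_zero (by exact_mod_cast hpF) hlam
    exact (smul_eq_zero.1 h3).resolve_left h4
  refine ⟨htop, hfr, ?_⟩
  have h5 := Submodule.finrank_sup_add_finrank_inf_eq U U'
  rw [htop, hinf, finrank_bot, finrank_top, hfr] at h5
  omega

/-- The special case of a 2-dimensional space over the field with three elements. -/
theorem special_two [Nontrivial V] {ρ : Q →* Module.End F V} {x g₀ : Q} (hd : SecondData ρ x g₀)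
    (hinj : Function.Injective ρ) (hF : Nat.card F = 3) (lam : F) (hlam : lam ≠ 0)
    (hsum : Module.End.eigenspace (ρ x) lam ⊔ Module.End.eigenspace (ρ x) (-lam) = ⊤)
    (hU : Module.finrank F (Module.End.eigenspace (ρ x) lam) = 1)
    (hU' : Module.finrank F (Module.End.eigenspace (ρ x) (-lam)) = 1) :
    GenMod (⊥ : Subgroup Q) 2 := by
  classical
  obtain ⟨⟨u₀, hu₀⟩, hu₀ne, hgen₀⟩ := finrank_eq_one_iff'.1 hU
  obtain ⟨⟨u₁, hu₁⟩, hu₁ne, hgen₁⟩ := finrank_eq_one_iff'.1 hU'
  have hu₀0 : u₀ ≠ 0 := fun h => hu₀ne (Subtype.ext h)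
  have hu₁0 : u₁ ≠ 0 := fun h => hu₁ne (Subtype.ext h)
  have heq : ∀ L₁ L₂ : Module.End F V, L₁ u₀ = L₂ u₀ → L₁ u₁ = L₂ u₁ → L₁ = L₂ := by
    intro L₁ L₂ h₀ h₁
    apply LinearMap.ext
    intro v
    have hv : v ∈ Module.End.eigenspace (ρ x) lam ⊔ Module.End.eigenspace (ρ x) (-lam) := by
      rw [hsum]
      trivial
    obtain ⟨a, ha, b, hb, rfl⟩ := Submodule.mem_sup.1 hv
    obtain ⟨c, hc⟩ := hgen₀ ⟨a, ha⟩
    obtain ⟨d, hd'⟩ := hgen₁ ⟨b, hb⟩
    have hc' : c • u₀ = a := congrArg Subtype.val hc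
    have hd'' : d • u₁ = b := congrArg Subtype.val hd'
    rw [← hc', ← hd'', map_add, map_add, map_smul, map_smul, map_smul, map_smul, h₀, h₁]
  have hval : ∀ h ∈ Subgroup.centralizer ({x} : Set Q),
      ∃ α β : F, (α = 1 ∨ α = -1) ∧ (β = 1 ∨ β = -1) ∧ ρ h u₀ = α • u₀ ∧ ρ h u₁ = β • u₁ := by
    intro h hh
    obtain ⟨α, hα⟩ := hgen₀ ⟨ρ h u₀, eigen_centralizer ρ x lam h hh u₀ hu₀⟩
    obtain ⟨β, hβ⟩ := hgen₁ ⟨ρ h u₁, eigen_centralizer ρ x (-lam) h hh u₁ hu₁⟩
    have hα' : α • u₀ = ρ h u₀ := congrArg Subtype.val hα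
    have hβ' : β • u₁ = ρ h u₁ := congrArg Subtype.val hβ
    have hα0 : α ≠ 0 := by
      intro h0
      rw [h0, zero_smul] at hα'
      exact hu₀0 (rho_inj ρ h (by rw [← hα', map_zero]))
    have hβ0 : β ≠ 0 := by
      intro h0
      rw [h0, zero_smul] at hβ'
      exact hu₁0 (rho_inj ρ h (by rw [← hβ', map_zero]))
    exact ⟨α, β, sq_eq_one_of_card_three hF α hα0, sq_eq_one_of_card_three hF β hβ0,
      hα'.symm, hβ'.symm⟩
  have hxu₀ : ρ x u₀ = lam • u₀ := Module.End.mem_eigenspace_iff.1 hu₀
  have hxu₁ : ρ x u₁ = (-lam) • u₁ := Module.End.mem_eigenspace_iff.1 hu₁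
  have hcv : ∀ v, ρ ⁅g₀, x⁆ v = -v := by
    intro v
    rw [hd.hζ]
    simp
  set H := Subgroup.closure (({x, g₀} : Finset Q) : Set Q) with hH
  have hxH : x ∈ H := Subgroup.subset_closure (by simp)
  have hg₀H : g₀ ∈ H := Subgroup.subset_closure (by simp)
  have hcH : ⁅g₀, x⁆ ∈ H := by
    rw [commutatorElement_def]
    exact H.mul_mem (H.mul_mem (H.mul_mem hg₀H hxH) (H.inv_mem hg₀H)) (H.inv_mem hxH)
  have hCH : ∀ h ∈ Subgroup.centralizer ({x} : Set Q), h ∈ H := by
    intro h hh
    obtain ⟨α, β, hα, hβ, h0, h1⟩ := hval h hh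
    rcases sq_eq_one_of_card_three hF lam hlam with hl | hl
    · rw [hl] at hxu₀ hxu₁
      rcases hα with rfl | rfl <;> rcases hβ with rfl | rfl
      · have : h = 1 := hinj (heq _ _ (by simpa using h0) (by simpa using h1))
        rw [this]
        exact H.one_mem
      · have : h = x := hinj (heq _ _ (by rw [h0, hxu₀]) (by rw [h1, hxu₁]))
        rw [this]
        exact hxH
      · have : h = ⁅g₀, x⁆ * x := hinj (heq _ _
          (by rw [h0, map_mul, Module.End.mul_apply, hcv, hxu₀]; simp)
          (by rw [h1, map_mul, Module.End.mul_apply, hcv, hxu₁]; simp))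
        rw [this]
        exact H.mul_mem hcH hxH
      · have : h = ⁅g₀, x⁆ := hinj (heq _ _ (by rw [h0, hcv]; simp) (by rw [h1, hcv]; simp))
        rw [this]
        exact hcH
    · rw [hl] at hxu₀ hxu₁
      rcases hα with rfl | rfl <;> rcases hβ with rfl | rfl
      · have : h = 1 := hinj (heq _ _ (by simpa using h0) (by simpa using h1))
        rw [this]
        exact H.one_mem
      · have : h = ⁅g₀, x⁆ * x := hinj (heq _ _
          (by rw [h0, map_mul, Module.End.mul_apply, hcv, hxu₀]; simp)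
          (by rw [h1, map_mul, Module.End.mul_apply, hcv, hxu₁]; simp))
        rw [this]
        exact H.mul_mem hcH hxH
      · have : h = x := hinj (heq _ _ (by rw [h0, hxu₀]) (by rw [h1, hxu₁]; simp))
        rw [this]
        exact hxH
      · have : h = ⁅g₀, x⁆ := hinj (heq _ _ (by rw [h0, hcv]; simp) (by rw [h1, hcv]; simp))
        rw [this]
        exact hcH
  refine ⟨{x, g₀}, Finset.card_le_two, ?_⟩
  rw [sup_bot_eq, eq_top_iff, ← sup_eq_top_of_dich hd.hdich]
  apply sup_le
  · exact hCH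
  · rw [Subgroup.zpowers_eq_closure, Subgroup.closure_le]
    intro z hz
    rw [Set.mem_singleton_iff.1 hz]
    exact hg₀H

theorem hBound_add {a b : ℕ} (ha : 1 ≤ a) (hb : 1 ≤ b) : hBound a + hBound b ≤ hBound (a + b) := by
  unfold hBound
  split_ifs <;> omega

theorem hBound_ge {n : ℕ} (hn : 2 ≤ n) : n ≤ hBound n := by
  unfold hBound
  split_ifs <;> omega

theorem hBound_double {a : ℕ} (ha : 2 ≤ a) : hBound a + hBound a + 1 ≤ hBound (2 * a) := by
  unfold hBound
  split_ifs <;> omega

/-- The faithful irreducible case over the field with three elements. -/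
theorem faithful_b2 {n : ℕ} (IH : ∀ m < n, B2.{u, v, w} m) [Nontrivial V] (hF : Nat.card F = 3)
    (hP : IsPGroup 2 Q) (ρ : Q →* Module.End F V) (hinj : Function.Injective ρ)
    (hn : Module.finrank F V = n)
    (hirr : ∀ U : Submodule F V, (∀ g, ∀ x ∈ U, ρ g x ∈ U) → U = ⊥ ∨ U = ⊤) :
    GenMod (⊥ : Subgroup Q) (hBound n) := by
  classical
  have hpF := two_ne_zero_of_card_three hF
  have hnpos : 0 < n := by
    rw [← hn]
    exact Module.finrank_pos
  have hone : 1 ≤ hBound n := by
    unfold hBound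
    split_ifs <;> omega
  have hker : ρ.ker = ⊥ := (MonoidHom.ker_eq_bot_iff ρ).2 hinj
  have IH1 : ∀ m < n, B1.{u, v, w} m := fun m _ => b1 m
  by_cases hc : ∀ z ∈ Subgroup.center Q, ∃ c : F, ρ z = c • 1
  · by_cases hab : ∀ a b : Q, a * b = b * a
    · have hs : ∀ g, ∃ c : F, ρ g = c • 1 := fun g =>
        hc g (Subgroup.mem_center_iff.2 (fun h => hab h g))
      exact (cyclic_of_scalar ρ hinj hs).mono hone
    · obtain ⟨x, g₀, hd⟩ := exists_second_data hP ρ hinj hpF hc hab
      have hC := sup_eq_top_of_dich hd.hdich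
      obtain ⟨a, ha⟩ := hd.hsq
      by_cases hsq : ∀ b : F, b ^ 2 ≠ a
      · obtain ⟨m, hm, hm2, hg⟩ := caseA IH1 hP ρ hinj hpF hn hnpos x a ha hsq
        refine (GenMod.of_index_two hC hg).mono ?_
        have := hBound_ge (n := n) (by omega)
        omega
      · push Not at hsq
        obtain ⟨b, rfl⟩ := hsq
        have hTT : ρ x * ρ x = (b ^ 2) • 1 := by
          rw [← ha, map_pow, sq]
        obtain ⟨lam, hlam, hne⟩ := exists_eigen (ρ x) b hTT
        have hlam0 : lam ≠ 0 := by
          intro h0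
          rw [h0] at hne
          apply hne
          rw [Submodule.eq_bot_iff]
          intro v hv
          rw [Module.End.mem_eigenspace_iff, zero_smul] at hv
          exact rho_inj ρ x (by rw [hv, map_zero])
        have htop := eigen_ne_top hd hpF lam hlam0
        obtain ⟨h1, h2, h3, h4, h5⟩ := finrank_facts _ hne htop
        obtain ⟨hsum, hfr, hdbl⟩ := eigen_balance hd hpF hirr lam hlam0 hne
        by_cases hdone : Module.finrank F (Module.End.eigenspace (ρ x) lam) = 1
        · have hn2 : n = 2 := by omega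
          have hb2 : hBound n = 2 := by
            rw [hn2]
            rfl
          rw [hb2]
          exact special_two hd hinj hF lam hlam0 hsum hdone (by omega)
        · have hb := reducible_bound (hP.to_subgroup (Subgroup.centralizer ({x} : Set Q)))
            (ρ.comp (Subgroup.centralizer ({x} : Set Q)).subtype) hpF
            (Module.End.eigenspace (ρ x) lam)
            (fun c v hv => eigen_centralizer ρ x lam c c.2 v hv) hBound
            (fun G _ _ hG τ => IH _ (hn ▸ h3) F hF _ G hG τ rfl)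
            (fun G _ _ hG τ => IH _ (hn ▸ h4) F hF _ G hG τ rfl)
          rw [inj_comp ρ hinj] at hb
          refine (GenMod.of_index_two hC hb).mono ?_
          have hq : Module.finrank F (V ⧸ Module.End.eigenspace (ρ x) lam) =
              Module.finrank F (Module.End.eigenspace (ρ x) lam) := by omega
          rw [hq]
          have h6 := hBound_double (a := Module.finrank F (Module.End.eigenspace (ρ x) lam))
            (by omega)
          have h7 : 2 * Module.finrank F (Module.End.eigenspace (ρ x) lam) = n := by omega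
          rwa [h7] at h6
  · push Not at hc
    obtain ⟨z, hz, hzns⟩ := hc
    obtain ⟨m, hm, hm2, hg⟩ := central_case IH1 hP ρ hpF hn hnpos hirr z hz hzns
    rw [hker] at hg
    refine hg.mono ?_
    have := hBound_ge (n := n) (by omega)
    omega

end faithful

/-- **The bound over the field with three elements.** -/
theorem b2 (n : ℕ) : B2.{u, v, w} n := by
  classical
  induction n using Nat.strong_induction_on with
  | _ n IH =>
    intro F _ hF V _ _ _ Q _ _ hP ρ hn
    have hpF := two_ne_zero_of_card_three hF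
    by_cases hV : Nontrivial V
    swap
    · rw [not_nontrivial_iff_subsingleton] at hV
      have : ρ.ker = ⊤ := by
        rw [eq_top_iff]
        intro g _
        rw [MonoidHom.mem_ker]
        apply LinearMap.ext
        intro v
        exact Subsingleton.elim _ _
      rw [this]
      exact GenMod.of_top _
    by_cases hred : ∃ U : Submodule F V, (∀ g, ∀ x ∈ U, ρ g x ∈ U) ∧ U ≠ ⊥ ∧ U ≠ ⊤
    · obtain ⟨U, hU, hbot, htop⟩ := hred
      obtain ⟨h1, h2, h3, h4, h5⟩ := finrank_facts U hbot htop
      have hb := reducible_bound hP ρ hpF U hU hBound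
        (fun G _ _ hG τ => IH _ (hn ▸ h3) F hF _ G hG τ rfl)
        (fun G _ _ hG τ => IH _ (hn ▸ h4) F hF _ G hG τ rfl)
      refine hb.mono ?_
      have h6 := hBound_add h1 h2
      rwa [h5, hn] at h6
    have hirr : ∀ U : Submodule F V, (∀ g, ∀ x ∈ U, ρ g x ∈ U) → U = ⊥ ∨ U = ⊤ := by
      intro U hU
      by_contra hcon
      push Not at hcon
      exact hred ⟨U, hU, hcon.1, hcon.2⟩
    exact gen_of_faithful ρ hirr (fun ρQ hinj hirrQ =>
      faithful_b2 IH hF (hP.to_quotient _) ρQ hinj hn hirrQ)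

theorem pow_hBound_le (n : ℕ) (hn : 1 ≤ n) : 2 ^ hBound n + 1 ≤ 3 ^ n := by
  induction n using Nat.strong_induction_on with
  | _ n IH =>
    by_cases h1 : n = 1
    · subst h1
      norm_num [hBound]
    by_cases h2 : n = 2
    · subst h2
      norm_num [hBound]
    obtain ⟨k, rfl⟩ : ∃ k, n = k + 2 := ⟨n - 2, by omega⟩
    have hk : 1 ≤ k := by omega
    have h3 := IH k (by omega) hk
    have h4 : hBound (k + 2) ≤ hBound k + 3 := by
      unfold hBound
      split_ifs <;> omega
    have h5 : 2 ^ hBound (k + 2) ≤ 2 ^ (hBound k + 3) := Nat.pow_le_pow_right (by norm_num) h4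
    rw [pow_add] at h5
    rw [pow_add]
    omega

theorem pow_two_mul_le (n : ℕ) (hn : 1 ≤ n) (r : ℕ) (hr : 5 ≤ r) : 2 ^ (2 * n - 1) + 1 ≤ r ^ n := by
  have h1 : 2 ^ (2 * n - 1) + 1 ≤ 5 ^ n := by
    induction n, hn using Nat.le_induction with
    | base => norm_num
    | succ n hn ih =>
      have : 2 * (n + 1) - 1 = (2 * n - 1) + 2 := by omega
      rw [this, pow_add, pow_succ]
      omega
  exact h1.trans (Nat.pow_le_pow_left hr n)

end Cfsg.Agent.Lib.FrobRep.TwoRank
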